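import Mathlib
import Cfsg.Agent.H237.PL.Blk
import Cfsg.Agent.S0287

/-!
# S3677, `lat_plus_even`: counts (helper237)
-/

set_option autoImplicit false
set_option linter.unusedSectionVars false

universe u v w

namespace Cfsg.Agent.H237.PL

open QuadraticMap Module Polynomial
open Cfsg.Agent.LieClassical.OrthCore Cfsg.Agent.LieClassical.OrthForms
open Cfsg.Agent.H160.QSpin Cfsg.Agent.H955
open Cfsg.Agent.H286.CS (ev Mult KK)

section cnt

variable {F : Type v} [Field F] [Finite F] {K : Type w} [Field K] [Algebra F K] [FiniteDimensional F K]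

theorem comm_Tl {g : (Dual F K × K) ≃ₗ[F] (Dual F K × K)} (hg : g ∈ O (HQ F K)) {w : Kˣ} :
    (∀ v, g (Tl w v) = Tl w (g v)) ↔ (⟨g, hg⟩ : O (HQ F K)) * Tw w = Tw w * ⟨g, hg⟩ :=
  ⟨fun h => Subtype.ext (LinearEquiv.ext h), fun h v => LinearEquiv.congr_fun (congrArg Subtype.val h) v⟩

omit [Finite F] in
theorem odd_self : Odd (finrank F F) := by
  rw [Module.finrank_self]
  exact odd_one

omit [Finite F] [FiniteDimensional F K] in
theorem pr_inj {V W : Type*} [AddCommGroup V] [Module F V] [AddCommGroup W] [Module F W] {g g' : V ≃ₗ[F] V}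
    {h h' : W ≃ₗ[F] W} (e : pr g h = pr g' h') : g = g' ∧ h = h' := by
  have h1 := prHom_injective (a₁ := (g, h)) (a₂ := (g', h')) e
  exact ⟨congrArg Prod.fst h1, congrArg Prod.snd h1⟩

omit [Finite F] in
theorem comm_Tw (γ β : Fˣ) (x : Dual F F × F) : Tl γ (Tl β x) = Tl β (Tl γ x) := by
  have h3 : Tw (F := F) (K := F) γ * Tw β = Tw β * Tw γ := by rw [← map_mul, ← map_mul, mul_comm]
  exact LinearEquiv.congr_fun (congrArg Subtype.val h3) x

theorem plane_comm {β : Fˣ} (hβ : β ^ 2 ≠ 1) {g : (Dual F F × F) ≃ₗ[F] (Dual F F × F)} (hg : g ∈ O (HQ F F))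
    (hc : ∀ v, g (Tl β v) = Tl β (g v)) : ∃ γ : Fˣ, g = Tl γ := by
  have h1 := (mem_comm_iff (F := F) (K := F) odd_self hβ ⟨g, hg⟩).1 (Subtype.ext (LinearEquiv.ext hc))
  obtain ⟨A, hA, -⟩ := h1
  obtain ⟨γ, hγ⟩ := DO_one A
  refine ⟨γ, ?_⟩
  show g = ((Tw γ : O (HQ F F)) : (Dual F F × F) ≃ₗ[F] (Dual F F × F))
  rw [hγ, hA]

/-- **the centralizer of an element of order `r` generating `K`** -/
theorem cent_zeta' (hodd : Odd (finrank F K)) {ζ : Kˣ} (hdeg : (minpoly F (ζ : K)).natDegree = finrank F K)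
    (hζ : ζ ^ 2 ≠ 1) (h3 : 2 ≤ finrank F K) {g : ((Dual F K × K) × (Dual F F × F)) ≃ₗ[F] ((Dual F K × K) × (Dual F F × F))}
    (hg : g ∈ O (Qm F K)) (hev : ev g) (hc : ∀ v, g (pr (Tl ζ) (Tl 1) v) = pr (Tl ζ) (Tl 1) (g v)) :
    ∃ (w : Kˣ) (β : Fˣ), g = pr (Tl w) (Tl β) := by
  have hne : ∀ b : F, (ζ : K) ≠ algebraMap F K b := by
    intro b hb
    have h1 : (minpoly F (ζ : K)).natDegree = 1 := by
      rw [hb, minpoly.eq_X_sub_C, natDegree_X_sub_C]
    omega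
  have := Fintype.ofFinite F
  obtain ⟨g₁, hg₁, g₂, hg₂, rfl, hc1, -⟩ := block2 (hne _) (hne _) hg hc
  obtain ⟨w, hw⟩ := exists_Tw hodd hdeg hζ ((comm_Tl hg₁).1 hc1)
  have h1 : g₁ = Tl w := by
    show g₁ = ((Tw w : O (HQ F K)) : (Dual F K × K) ≃ₗ[F] (Dual F K × K))
    rw [hw]
  subst h1
  rw [ev_pr] at hev
  obtain ⟨β, rfl⟩ := plane_ev hg₂ (hev.1 (ev_DO _))
  exact ⟨w, β, rfl⟩

/-- **generic type** -/
theorem count_gen (hodd : Odd (finrank F K)) {w : Kˣ} {β : Fˣ} (hw : w ^ 2 ≠ 1) (h1 : (w : K) ≠ algebraMap F K β)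
    (h2 : (w : K) ≠ algebraMap F K ((β⁻¹ : Fˣ) : F)) :
    Nat.card (KK0 (Qm F K) (pr (Tl w) (Tl β))) =
      Nat.card {A : K ≃ₗ[F] K // ∀ a, A ((w : K) * a) = (w : K) * A a} * Nat.card Fˣ := by
  rw [← Nat.card_prod]
  symm
  refine Nat.card_congr (Equiv.ofBijective (fun p => ⟨pr (Dl p.1.1) (Tl p.2), ?_, ?_, ?_⟩) ⟨?_, ?_⟩)
  · exact pr_mem_O (Dl_mem _) (Subtype.property _)
  · rw [ev_pr]
    exact iff_of_true (ev_Dl _) (ev_DO _)
  · intro v
    have e1 : ∀ x, Dl p.1.1 (Tl w x) = Tl w (Dl p.1.1 x) := by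
      have h3 : (DO p.1.1 : O (HQ F K)) * Tw w = Tw w * DO p.1.1 := (mem_comm_iff hodd hw _).2 ⟨p.1.1, rfl, p.1.2⟩
      exact (comm_Tl (Dl_mem _)).2 h3
    rw [pr_apply, pr_apply, pr_apply, pr_apply, e1, comm_Tw]
  · intro p p' hpp
    have h3 : pr (Dl p.1.1) (Tl p.2) = pr (Dl p'.1.1) (Tl p'.2) := congrArg Subtype.val hpp
    obtain ⟨h4, h5⟩ := pr_inj h3
    apply Prod.ext
    · exact Subtype.ext (Dl_injective h4)
    · exact Tw_injective (F := F) (K := F) (Subtype.ext h5)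
  · rintro ⟨g, hg, hev, hc⟩
    obtain ⟨g₁, hg₁, g₂, hg₂, rfl, hc1, -⟩ := block2 h1 h2 hg hc
    obtain ⟨A, hA, hcA⟩ := (mem_comm_iff hodd hw _).1 ((comm_Tl hg₁).1 hc1)
    have h3 : g₁ = Dl A := by
      have := congrArg Subtype.val hA
      exact this.symm
    subst h3
    rw [ev_pr] at hev
    obtain ⟨γ, rfl⟩ := plane_ev hg₂ (hev.1 (ev_Dl _))
    exact ⟨(⟨A, hcA⟩, γ), rfl⟩

/-- **the type `w = 1`** -/
theorem count_A {β : Fˣ} (hβ : β ^ 2 ≠ 1) :
    Nat.card (KK0 (Qm F K) (pr (Tl 1) (Tl β))) =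
      Nat.card {g : O (HQ F K) // ev (g : (Dual F K × K) ≃ₗ[F] (Dual F K × K))} * Nat.card Fˣ := by
  have hβ1 : β ≠ 1 := by
    rintro rfl
    exact hβ (one_pow 2)
  have h1 : ((1 : Kˣ) : K) ≠ algebraMap F K β := by
    intro h
    apply hβ1
    apply Units.ext
    apply (algebraMap F K).injective
    rw [← h, Units.val_one, Units.val_one, map_one]
  have h2 : ((1 : Kˣ) : K) ≠ algebraMap F K ((β⁻¹ : Fˣ) : F) := by
    intro h
    apply hβ1
    rw [← inv_eq_one]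
    apply Units.ext
    apply (algebraMap F K).injective
    rw [← h, Units.val_one, Units.val_one, map_one]
  rw [← Nat.card_prod]
  symm
  refine Nat.card_congr (Equiv.ofBijective (fun p => ⟨pr (p.1.1 : (Dual F K × K) ≃ₗ[F] (Dual F K × K)) (Tl p.2),
    ?_, ?_, ?_⟩) ⟨?_, ?_⟩)
  · exact pr_mem_O p.1.1.2 (Subtype.property _)
  · rw [ev_pr]
    exact iff_of_true p.1.2 (ev_DO _)
  · intro v
    have e1 : ∀ x : Dual F K × K, Tl 1 x = x := by
      intro x
      show ((Tw 1 : O (HQ F K)) : (Dual F K × K) ≃ₗ[F] (Dual F K × K)) x = x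
      rw [map_one]
      rfl
    rw [pr_apply, pr_apply, pr_apply, pr_apply, e1, e1, comm_Tw]
  · intro p p' hpp
    have h3 : pr (p.1.1 : (Dual F K × K) ≃ₗ[F] (Dual F K × K)) (Tl p.2) =
        pr (p'.1.1 : (Dual F K × K) ≃ₗ[F] (Dual F K × K)) (Tl p'.2) := congrArg Subtype.val hpp
    obtain ⟨h4, h5⟩ := pr_inj h3
    apply Prod.ext
    · exact Subtype.ext (Subtype.ext h4)
    · exact Tw_injective (F := F) (K := F) (Subtype.ext h5)
  · rintro ⟨g, hg, hev, hc⟩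
    obtain ⟨g₁, hg₁, g₂, hg₂, rfl, -, hc2⟩ := block2 h1 h2 hg hc
    obtain ⟨γ, rfl⟩ := plane_comm hβ hg₂ hc2
    rw [ev_pr] at hev
    exact ⟨(⟨⟨g₁, hg₁⟩, hev.2 (ev_DO _)⟩, γ), rfl⟩

end cnt

/-! ### scalars on a maximal totally singular subspace -/

section scal

variable {F : Type v} [Field F] {M : Type w} [AddCommGroup M] [Module F M]

/-- scalars -/
noncomputable def sc (M : Type w) [AddCommGroup M] [Module F M] : Fˣ →* (M ≃ₗ[F] M) := DistribMulAction.toModuleAut F M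

theorem sc_apply (a : Fˣ) (x : M) : sc M a x = (a : F) • x := rfl

theorem sc_symm_apply (a : Fˣ) (x : M) : (sc M a).symm x = ((a⁻¹ : Fˣ) : F) • x := by
  rw [LinearEquiv.symm_apply_eq, sc_apply, smul_smul, ← Units.val_mul, mul_inv_cancel, Units.val_one, one_smul]

theorem Dl_sc (a : Fˣ) (x : Dual F M × M) : Dl (sc M a) x = (((a⁻¹ : Fˣ) : F) • x.1, (a : F) • x.2) := by
  apply Prod.ext
  · ext m
    rw [Dl_fst, sc_symm_apply, map_smul]
    rfl
  · rfl

theorem smul_zero_of_sq {W : Type*} [AddCommGroup W] [Module F W] {c : Fˣ} (hc : c ^ 2 ≠ 1) {s : W}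
    (h : (c : F) • s = ((c⁻¹ : Fˣ) : F) • s) : s = 0 := by
  have h1 : ((c : F) - ((c⁻¹ : Fˣ) : F)) • s = 0 := by rw [sub_smul, h, sub_self]
  refine (smul_eq_zero.1 h1).resolve_left fun h2 => hc ?_
  have h3 : c = c⁻¹ := Units.ext (sub_eq_zero.1 h2)
  rw [pow_two]
  nth_rewrite 1 [h3]
  exact inv_mul_cancel c

/-- **scalar type** -/
theorem card_scalar [FiniteDimensional F M] {c : Fˣ} (hc : c ^ 2 ≠ 1) :
    Nat.card (KK0 (HQ F M) (Dl (sc M c))) = Nat.card (M ≃ₗ[F] M) := by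
  symm
  refine Nat.card_congr (Equiv.ofBijective (fun A => ⟨Dl A, Dl_mem A, ev_Dl A, ?_⟩) ⟨?_, ?_⟩)
  · intro v
    rw [Dl_sc, Dl_sc]
    apply Prod.ext
    · rfl
    · exact A.map_smul _ _
  · intro A B h
    exact Dl_injective (congrArg Subtype.val h)
  · rintro ⟨g, hg, hev, hg'⟩
    have k1 : ∀ m : M, (g (0, m)).1 = 0 := by
      intro m
      have h1 := hg' (0, m)
      have h2 : Dl (sc M c) ((0 : Dual F M), m) = (c : F) • ((0 : Dual F M), m) := by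
        rw [Dl_sc]
        apply Prod.ext
        · simp
        · rfl
      rw [h2, map_smul, Dl_sc] at h1
      exact smul_zero_of_sq hc (congrArg Prod.fst h1)
    have k2 : ∀ φ : Dual F M, (g (φ, 0)).2 = 0 := by
      intro φ
      have h1 := hg' (φ, 0)
      have h2 : Dl (sc M c) (φ, (0 : M)) = ((c⁻¹ : Fˣ) : F) • (φ, (0 : M)) := by
        rw [Dl_sc]
        apply Prod.ext
        · rfl
        · simp
      rw [h2, map_smul, Dl_sc] at h1
      exact smul_zero_of_sq hc (congrArg Prod.snd h1).symm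
    obtain ⟨A, hA⟩ := exists_DO (⟨g, hg⟩ : O (HQ F M)) k1 k2
    refine ⟨A, Subtype.ext ?_⟩
    show Dl A = g
    exact congrArg Subtype.val hA

end scal

section conj

variable {F : Type v} [Field F] {V : Type*} [AddCommGroup V] [Module F V] {W : Type*} [AddCommGroup W] [Module F W]

theorem KK0_cj {Q : QuadraticForm F V} {Q' : QuadraticForm F W} {e : V ≃ₗ[F] W} (he : IsIso Q Q' e)
    {X g : V ≃ₗ[F] V} (hg : g ∈ KK0 Q X) : cj e g ∈ KK0 Q' (cj e X) := by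
  refine ⟨cj_mem_O he hg.1, (ev_cj e g).2 hg.2.1, ?_⟩
  intro v
  rw [cj_apply, cj_apply, cj_apply, cj_apply, LinearEquiv.symm_apply_apply, LinearEquiv.symm_apply_apply, hg.2.2]

theorem card_KK0_cj {Q : QuadraticForm F V} {Q' : QuadraticForm F W} {e : V ≃ₗ[F] W} (he : IsIso Q Q' e)
    (X : V ≃ₗ[F] V) : Nat.card (KK0 Q' (cj e X)) = Nat.card (KK0 Q X) := by
  symm
  refine Nat.card_congr (Equiv.ofBijective (fun g => ⟨cj e g.1, KK0_cj he g.2⟩) ⟨?_, ?_⟩)
  · intro g g' hgg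
    exact Subtype.ext ((cjEquiv e).injective (congrArg Subtype.val hgg))
  · rintro ⟨g, hg⟩
    have h1 := KK0_cj he.symm hg
    have h2 : cj e.symm (cj e X) = X := (cjEquiv e).symm_apply_apply X
    rw [h2] at h1
    exact ⟨⟨_, h1⟩, Subtype.ext ((cjEquiv e).apply_symm_apply g)⟩

end conj

section gl

variable {F : Type v} [Field F] {K : Type w} [Field K] [Algebra F K]

variable (F K) in
/-- `(K × F)* × (K × F)` and `(K* × K) × (F* × F)` -/
noncomputable def eQ : (Dual F (K × F) × (K × F)) ≃ₗ[F] ((Dual F K × K) × (Dual F F × F)) :=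
  (QuadraticForm.dualProdProdIsometry (R := F) (M := K) (N := F)).toLinearEquiv

theorem eQ_apply (x : Dual F (K × F) × (K × F)) :
    eQ F K x = ((x.1 ∘ₗ LinearMap.inl F K F, x.2.1), (x.1 ∘ₗ LinearMap.inr F K F, x.2.2)) := rfl

theorem isIso_eQ : IsIso (HQ F (K × F)) (Qm F K) (eQ F K) := fun x =>
  (QuadraticForm.dualProdProdIsometry (R := F) (M := K) (N := F)).map_app' x

/-- an element of `F` as an element of `K` -/
def aF (c : Fˣ) : Kˣ := Units.map (algebraMap F K).toMonoidHom c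

theorem coe_aF (c : Fˣ) : ((aF c : Kˣ) : K) = algebraMap F K c := rfl

theorem aF_inv (c : Fˣ) : (aF (K := K) c)⁻¹ = aF c⁻¹ := (map_inv (Units.map (algebraMap F K).toMonoidHom) c).symm

theorem Tl_aF (c : Fˣ) (x : Dual F K × K) : Tl (aF c) x = (((c⁻¹ : Fˣ) : F) • x.1, (c : F) • x.2) := by
  show ((Tw (aF c) : O (HQ F K)) : (Dual F K × K) ≃ₗ[F] (Dual F K × K)) x = _
  rw [Tw_apply]
  apply Prod.ext
  · ext a
    rw [rho_apply]
    show x.1 (((aF c : Kˣ)⁻¹ : Kˣ) * a) = _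
    rw [aF_inv, coe_aF, ← Algebra.smul_def, map_smul]
    rfl
  · show ((aF c : Kˣ) : K) * x.2 = _
    rw [coe_aF, ← Algebra.smul_def]

theorem Tl_self (c : Fˣ) (x : Dual F F × F) : Tl c x = (((c⁻¹ : Fˣ) : F) • x.1, (c : F) • x.2) := by
  show ((Tw c : O (HQ F F)) : (Dual F F × F) ≃ₗ[F] (Dual F F × F)) x = _
  rw [Tw_apply]
  apply Prod.ext
  · ext
    rw [rho_apply, LinearMap.smul_apply]
    exact (x.1.map_smul _ _)
  · rfl

theorem cj_eQ (c : Fˣ) : cj (eQ F K) (Dl (sc (K × F) c)) = pr (Tl (aF c)) (Tl c) := by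
  apply LinearEquiv.ext
  intro y
  obtain ⟨x, rfl⟩ := (eQ F K).surjective y
  rw [cj_apply', Dl_sc, eQ_apply, eQ_apply, pr_apply, Tl_aF, Tl_self]
  rfl

variable (F) in
/-- the swap of the hyperbolic plane -/
noncomputable def sw : (Dual F F × F) ≃ₗ[F] (Dual F F × F) :=
  LinearEquiv.ofInvolutive
    { toFun := fun x => (x.2 • LinearMap.id, x.1 1)
      map_add' := fun x y => by
        apply Prod.ext
        · exact add_smul _ _ _
        · rfl
      map_smul' := fun c x => by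
        apply Prod.ext
        · exact mul_smul _ _ _
        · rfl }
    (by
      intro x
      apply Prod.ext
      · ext
        show (x.1 1 • (LinearMap.id : F →ₗ[F] F)) 1 = x.1 1
        simp
      · show (x.2 • (LinearMap.id : F →ₗ[F] F)) 1 = x.2
        simp)

theorem sw_apply (x : Dual F F × F) : sw F x = (x.2 • LinearMap.id, x.1 1) := rfl

theorem isIso_sw : IsIso (HQ F F) (HQ F F) (sw F) := by
  intro x
  rw [sw_apply, HQ_apply, HQ_apply]
  show x.2 • x.1 1 = x.1 x.2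
  rw [← map_smul, smul_eq_mul, mul_one]

theorem sw_Tl (c : Fˣ) (x : Dual F F × F) : sw F (Tl c x) = Tl c⁻¹ (sw F x) := by
  rw [Tl_self, Tl_self, sw_apply, sw_apply, inv_inv]
  apply Prod.ext
  · ext
    show ((c : F) • x.2) • (1 : F) = (c : F) • (x.2 • (1 : F))
    rw [smul_assoc]
  · rfl

theorem isIso_prsw : IsIso (Qm F K) (Qm F K) (pr (1 : (Dual F K × K) ≃ₗ[F] (Dual F K × K)) (sw F)) := by
  intro x
  rw [pr_apply, Qpr_apply, Qpr_apply, isIso_sw]
  rfl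

theorem cj_prsw (X : (Dual F K × K) ≃ₗ[F] (Dual F K × K)) (c : Fˣ) :
    cj (pr (1 : (Dual F K × K) ≃ₗ[F] (Dual F K × K)) (sw F)) (pr X (Tl c)) = pr X (Tl c⁻¹) := by
  apply LinearEquiv.ext
  intro y
  obtain ⟨x, rfl⟩ := (pr (1 : (Dual F K × K) ≃ₗ[F] (Dual F K × K)) (sw F)).surjective y
  rw [cj_apply', pr_apply, pr_apply, pr_apply, pr_apply]
  apply Prod.ext
  · rfl
  · exact sw_Tl c x.2

/-- **the type `w = β^{±1}`** -/
theorem count_GL [FiniteDimensional F K] {β : Fˣ} (hβ : β ^ 2 ≠ 1) {w : Kˣ}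
    (hw : (w : K) = algebraMap F K β ∨ (w : K) = algebraMap F K ((β⁻¹ : Fˣ) : F)) :
    Nat.card (KK0 (Qm F K) (pr (Tl w) (Tl β))) = Nat.card ((K × F) ≃ₗ[F] (K × F)) := by
  rcases hw with hw | hw
  · have h1 : w = aF β := Units.ext hw
    rw [h1, ← cj_eQ, card_KK0_cj isIso_eQ, card_scalar hβ]
  · have h1 : w = aF β⁻¹ := Units.ext hw
    have h2 : pr (Tl (aF (K := K) β⁻¹)) (Tl β) = cj (pr (1 : (Dual F K × K) ≃ₗ[F] (Dual F K × K)) (sw F))
        (pr (Tl (aF (K := K) β⁻¹)) (Tl β⁻¹)) := by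
      rw [cj_prsw, inv_inv]
    rw [h1, h2, card_KK0_cj isIso_prsw, ← cj_eQ, card_KK0_cj isIso_eQ, card_scalar]
    rwa [inv_pow, ne_eq, inv_eq_one]

end gl

end Cfsg.Agent.H237.PL
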