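import Mathlib
import Cfsg.Agent.LieClassical.OrthFinite
import Cfsg.Agent.LieClassical.OrthForms
import Cfsg.Agent.LieClassical.OrthCenter
import Cfsg.Agent.LieClassical.OmegaReindex
import Cfsg.Agent.H160.QSpin
import Cfsg.Agent.S0788
import Cfsg.Agent.S0789

/-!
# S3677, lattices of `PΩ⁺_{2n}(q)`: the common model (helper237)

`HQ F M` : the hyperbolic form `(φ, m) ↦ φ m` on `M* × M`.
`DO : GL(M) →* O (HQ F M)`, `A ↦ (A⁻ᵀ, A)`.
`modelEquiv` : `PΩ(quadFormPlus n F) ≃* Ω / Z(Ω)` for `Ω = commutator (O (HQ F M))`, `dim M = n`.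
`index_dvd`, `index_odd`, `index_two` : the index of `Ω`; `mem_center` : the centre of `Ω`.
-/

set_option autoImplicit false

universe u v w

namespace Cfsg.Agent.H237.PL

open QuadraticMap Module
open Cfsg.Agent.LieClassical.OrthCore Cfsg.Agent.LieClassical.OrthFinite Cfsg.Agent.LieClassical.OrthForms
open Cfsg.Agent.H160.QSpin

/-! ### commutator subgroups and isomorphisms -/

section grp

variable {G : Type u} [Group G] {H : Type v} [Group H]

theorem map_commutator_equiv (e : G ≃* H) : (commutator G).map e.toMonoidHom = commutator H := by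
  rw [commutator_def, commutator_def, Subgroup.map_commutator, Subgroup.map_top_of_surjective _ e.surjective]

/-- the isomorphism of the commutator subgroups -/
noncomputable def commEquiv (e : G ≃* H) : commutator G ≃* commutator H :=
  (e.subgroupMap (commutator G)).trans (MulEquiv.subgroupCongr (map_commutator_equiv e))

theorem coe_commEquiv (e : G ≃* H) (g : commutator G) : (commEquiv e g : H) = e g := rfl

end grp

variable (F : Type v) [Field F] (M : Type w) [AddCommGroup M] [Module F M]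

/-- the hyperbolic form on `M* × M` -/
abbrev HQ : QuadraticForm F (Dual F M × M) := QuadraticForm.dualProd F M

variable {F M}

theorem HQ_apply (x : Dual F M × M) : HQ F M x = x.1 x.2 := rfl

theorem polar_HQ (x y : Dual F M × M) : polar (HQ F M) x y = x.1 y.2 + y.1 x.2 := by
  simp only [polar, QuadraticForm.dualProd_apply, Prod.fst_add, Prod.snd_add, LinearMap.add_apply, map_add]
  ring

theorem nondeg_HQ : Nondeg (HQ F M) := by
  rintro ⟨φ, m⟩ h
  have h1 : φ = 0 := by
    ext y
    have := h (0, y)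
    rw [polar_HQ] at this
    simpa using this
  have h2 : m = 0 := by
    refine (Module.forall_dual_apply_eq_zero_iff F m).1 fun ψ => ?_
    have := h (ψ, 0)
    rw [polar_HQ] at this
    simpa using this
  rw [h1, h2]
  rfl

/-- `GL(M)` in `GL(M* × M)` -/
def Dl : (M ≃ₗ[F] M) →* ((Dual F M × M) ≃ₗ[F] (Dual F M × M)) where
  toFun A := A.dualMap.symm.prodCongr A
  map_one' := rfl
  map_mul' _ _ := rfl

theorem Dl_apply (A : M ≃ₗ[F] M) (x : Dual F M × M) : Dl A x = (x.1 ∘ₗ (A.symm : M →ₗ[F] M), A x.2) := rfl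

theorem Dl_fst (A : M ≃ₗ[F] M) (x : Dual F M × M) (m : M) : (Dl A x).1 m = x.1 (A.symm m) := rfl

theorem Dl_mem (A : M ≃ₗ[F] M) : Dl A ∈ O (HQ F M) := by
  intro x
  rw [HQ_apply, HQ_apply, Dl_fst]
  show x.1 (A.symm (A x.2)) = _
  rw [LinearEquiv.symm_apply_apply]

/-- `GL(M)` in `O(M* × M)` -/
def DO : (M ≃ₗ[F] M) →* O (HQ F M) := Dl.codRestrict (O (HQ F M)) Dl_mem

theorem coe_DO (A : M ≃ₗ[F] M) : (DO A : (Dual F M × M) ≃ₗ[F] (Dual F M × M)) = Dl A := rfl

theorem Dl_injective : Function.Injective (Dl : (M ≃ₗ[F] M) → _) := by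
  intro A B h
  ext m
  have := congrArg Prod.snd (LinearEquiv.congr_fun h ((0 : Dual F M), m))
  exact this

theorem DO_injective : Function.Injective (DO : (M ≃ₗ[F] M) → O (HQ F M)) := by
  intro A B h
  exact Dl_injective (congrArg Subtype.val h)

/-- an isometry which preserves `M` and `M*` comes from `GL(M)` -/
theorem exists_DO [FiniteDimensional F M] (g : O (HQ F M))
    (h1 : ∀ m : M, ((g : (Dual F M × M) ≃ₗ[F] (Dual F M × M)) (0, m)).1 = 0)
    (h2 : ∀ φ : Dual F M, ((g : (Dual F M × M) ≃ₗ[F] (Dual F M × M)) (φ, 0)).2 = 0) : ∃ A : M ≃ₗ[F] M, DO A = g := by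
  set G : (Dual F M × M) ≃ₗ[F] (Dual F M × M) := (g : (Dual F M × M) ≃ₗ[F] (Dual F M × M)) with hG
  let a : M →ₗ[F] M := (LinearMap.snd F (Dual F M) M).comp ((G : _ →ₗ[F] _).comp (LinearMap.inr F (Dual F M) M))
  have ha : ∀ m, a m = (G (0, m)).2 := fun m => rfl
  have hQ : ∀ (φ : Dual F M) (m : M), (G (φ, 0)).1 (a m) = φ m := by
    intro φ m
    have h3 := polar_map g.2 (φ, 0) (0, m)
    rw [polar_HQ, polar_HQ, ← hG, h1 m, h2 φ] at h3
    simpa [ha] using h3
  have hinj : Function.Injective a := by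
    rw [injective_iff_map_eq_zero]
    intro m hm
    refine (Module.forall_dual_apply_eq_zero_iff F m).1 fun φ => ?_
    rw [← hQ φ m, hm, map_zero]
  let A : M ≃ₗ[F] M := LinearEquiv.ofInjectiveEndo a hinj
  have hA : ∀ m, A m = (G (0, m)).2 := fun m => rfl
  refine ⟨A, Subtype.ext ?_⟩
  rw [coe_DO, ← hG]
  apply LinearEquiv.ext
  rintro ⟨φ, m⟩
  have e : ((φ, m) : Dual F M × M) = (φ, 0) + (0, m) := by simp
  have e1 : (Dl A (φ, m)) = (G (φ, 0)) + (G (0, m)) := by
    apply Prod.ext
    · rw [Prod.fst_add, h1 m, add_zero]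
      ext y
      rw [Dl_fst]
      show φ (A.symm y) = _
      rw [← hQ φ (A.symm y)]
      congr 1
      exact A.apply_symm_apply y
    · rw [Prod.snd_add, h2 φ, zero_add, Dl_apply]
      exact hA m
  rw [e1, ← map_add, ← e]

theorem finrank_model [FiniteDimensional F M] : finrank F (Dual F M × M) = 2 * finrank F M := by
  rw [Module.finrank_prod, Subspace.dual_finrank_eq]
  ring

/-! ### the standard form -/

/-- coordinates -/
noncomputable def toStd {n : ℕ} (b : Basis (Fin n) F M) : (Fin n ⊕ Fin n → F) ≃ₗ[F] (Dual F M × M) :=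
  (LinearEquiv.sumArrowLequivProdArrow (Fin n) (Fin n) F F).trans
    (b.dualBasis.equivFun.symm.prodCongr b.equivFun.symm)

theorem isIso_toStd {n : ℕ} (b : Basis (Fin n) F M) : IsIso (plusForm n F) (HQ F M) (toStd b) := by
  intro x
  have e1 : toStd b x = (∑ i, x (Sum.inl i) • b.dualBasis i, ∑ i, x (Sum.inr i) • b i) := by
    show (b.dualBasis.equivFun.symm _, b.equivFun.symm _) = _
    rw [Basis.equivFun_symm_apply, Basis.equivFun_symm_apply]
    rfl
  rw [e1, HQ_apply]
  show (∑ i, x (Sum.inl i) • b.dualBasis i) (∑ i, x (Sum.inr i) • b i) = plusForm n F x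
  rw [coe_plusForm, quadFormPlus_apply, LinearMap.sum_apply]
  refine Finset.sum_congr rfl fun i _ => ?_
  rw [LinearMap.smul_apply, map_sum, Finset.sum_eq_single i]
  · rw [map_smul, Basis.dualBasis_apply_self]
    simp
  · intro j _ hj
    rw [map_smul, Basis.dualBasis_apply_self, if_neg hj]
    simp
  · intro h
    exact absurd (Finset.mem_univ i) h

/-- transport of orthogonal groups -/
noncomputable def oEquiv {V : Type*} [AddCommGroup V] [Module F V] {W : Type*} [AddCommGroup W] [Module F W]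
    {Q : QuadraticForm F V} {Q' : QuadraticForm F W} (e : V ≃ₗ[F] W) (he : IsIso Q Q' e) : O Q ≃* O Q' where
  toFun g := ⟨cj e g, cj_mem_O he g.2⟩
  invFun g := ⟨cj e.symm g, cj_mem_O he.symm g.2⟩
  left_inv _ := Subtype.ext ((cjEquiv e).symm_apply_apply _)
  right_inv _ := Subtype.ext ((cjEquiv e).apply_symm_apply _)
  map_mul' _ _ := Subtype.ext (cj_mul e _ _)

theorem coe_oEquiv {V : Type*} [AddCommGroup V] [Module F V] {W : Type*} [AddCommGroup W] [Module F W]
    {Q : QuadraticForm F V} {Q' : QuadraticForm F W} (e : V ≃ₗ[F] W) (he : IsIso Q Q' e) (g : O Q) :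
    (oEquiv e he g : W ≃ₗ[F] W) = cj e g := rfl

/-- from matrices to the model -/
noncomputable def isoEquiv {n : ℕ} (b : Basis (Fin n) F M) :
    Cfsg.isometryGroup F (Cfsg.quadFormPlus n F) ≃* O (HQ F M) :=
  (MulEquiv.subgroupCongr (by rw [coe_plusForm])).trans
    ((isometryEquiv (plusForm n F)).trans (oEquiv (toStd b) (isIso_toStd b)))

/-- **The model of `PΩ⁺`.** -/
noncomputable def modelEquiv {n : ℕ} (b : Basis (Fin n) F M) :
    Cfsg.POmega F (Cfsg.quadFormPlus n F) ≃*
      (commutator (O (HQ F M)) ⧸ Subgroup.center (commutator (O (HQ F M)))) :=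
  quotientCenterCongr (commEquiv (isoEquiv b))

theorem isoEquiv_apply {n : ℕ} (b : Basis (Fin n) F M) (g : Cfsg.isometryGroup F (Cfsg.quadFormPlus n F))
    (x : Fin n ⊕ Fin n → F) :
    (isoEquiv b g : (Dual F M × M) ≃ₗ[F] (Dual F M × M)) (toStd b x) =
      toStd b (((g : Matrix.GeneralLinearGroup (Fin n ⊕ Fin n) F) : Matrix (Fin n ⊕ Fin n) (Fin n ⊕ Fin n) F).mulVec x) := by
  show cj (toStd b) _ (toStd b x) = _
  rw [cj_apply']
  rfl

theorem nondeg_plus (n : ℕ) : (polarBilin (plusForm n F)).Nondegenerate := by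
  constructor
  · intro x hx
    exact nondeg_plusForm n F x fun y => hx y
  · intro x hx
    refine nondeg_plusForm n F x fun y => ?_
    rw [QuadraticMap.polar_comm]
    exact hx y

theorem exists_sing {n : ℕ} (hn : 1 ≤ n) : ∃ u : Fin n ⊕ Fin n → F, u ≠ 0 ∧ plusForm n F u = 0 := by
  classical
  refine ⟨Pi.single (Sum.inl ⟨0, hn⟩) 1, ?_, ?_⟩
  · intro h
    have := congrFun h (Sum.inl ⟨0, hn⟩)
    simp at this
  · rw [coe_plusForm, quadFormPlus_apply]
    refine Finset.sum_eq_zero fun i _ => ?_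
    rw [Pi.single_apply (Sum.inl _) _ (Sum.inr i), if_neg (by simp), mul_zero]

/-- **The centre of `Ω`.** -/
theorem mem_center [FiniteDimensional F M] (hn : 2 ≤ finrank F M) (z : commutator (O (HQ F M))) :
    z ∈ Subgroup.center (commutator (O (HQ F M))) ↔
      ((z : O (HQ F M)) : (Dual F M × M) ≃ₗ[F] (Dual F M × M)) = 1 ∨
      ((z : O (HQ F M)) : (Dual F M × M) ≃ₗ[F] (Dual F M × M)) = LinearEquiv.neg F := by
  set n := finrank F M with hn'
  have b : Basis (Fin n) F M := finBasisOfFinrankEq F M rfl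
  obtain ⟨y, rfl⟩ := (commEquiv (isoEquiv b)).surjective z
  have h1 : commEquiv (isoEquiv b) y ∈ Subgroup.center (commutator (O (HQ F M))) ↔
      y ∈ Subgroup.center (Cfsg.Omega F (Cfsg.quadFormPlus n F)) := by
    rw [← map_center_mulEquiv (commEquiv (isoEquiv b))]
    exact Subgroup.mem_map_iff_mem (commEquiv (isoEquiv b)).injective
  have h2 := @Cfsg.Agent.LieClassical.OrthCenter.mem_center_omega_iff (Fin n ⊕ Fin n) _ _ F _ (plusForm n F)
  rw [coe_plusForm] at h2
  rw [h1, h2 (nondeg_plus n) (by simp; omega) (by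
    have := exists_sing (F := F) (n := n) (by omega)
    rwa [coe_plusForm] at this) y, coe_commEquiv]
  have key : ∀ c : F, (((y : Cfsg.isometryGroup F (Cfsg.quadFormPlus n F)) :
      Matrix.GeneralLinearGroup (Fin n ⊕ Fin n) F) : Matrix (Fin n ⊕ Fin n) (Fin n ⊕ Fin n) F) = c • 1 ↔
      ∀ x, (isoEquiv b (y : Cfsg.isometryGroup F (Cfsg.quadFormPlus n F)) : (Dual F M × M) ≃ₗ[F] (Dual F M × M)) x
        = c • x := by
    intro c
    constructor
    · intro h x
      obtain ⟨x, rfl⟩ := (toStd b).surjective x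
      rw [isoEquiv_apply, h, Matrix.smul_mulVec, Matrix.one_mulVec, map_smul]
    · intro h
      apply Matrix.mulVec_injective
      funext x
      rw [Matrix.smul_mulVec, Matrix.one_mulVec]
      apply (toStd b).injective
      rw [← isoEquiv_apply, h, map_smul]
  refine or_congr ?_ ?_
  · have := key 1
    rw [one_smul] at this
    rw [this]
    constructor
    · intro h
      apply LinearEquiv.ext
      intro x
      rw [h x, one_smul]
      rfl
    · intro h x
      rw [h, one_smul]
      rfl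
  · have := key (-1)
    rw [neg_smul, one_smul] at this
    rw [this]
    constructor
    · intro h
      apply LinearEquiv.ext
      intro x
      exact (h x).trans (neg_one_smul F x)
    · intro h x
      rw [h]
      exact (neg_one_smul F x).symm

theorem index_eq [FiniteDimensional F M] :
    (commutator (O (HQ F M))).index = (Cfsg.Omega F (Cfsg.quadFormPlus (finrank F M) F)).index :=
  (Cfsg.Agent.LieClassical.OmegaReindex.index_commutator_congr (isoEquiv (finBasisOfFinrankEq F M rfl))).symm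

theorem index_odd [Fintype F] [FiniteDimensional F M] (h2 : (2 : F) ≠ 0) (hn : 1 ≤ finrank F M) :
    (commutator (O (HQ F M))).index = 4 := by
  rw [index_eq, ← coe_plusForm]
  exact Cfsg.Agent.LieClassical.OmegaReindex.index_omega_of_fin (n := 2 * finrank F M) (by simp; ring)
    (fun Q' hQ' => Cfsg.Agent.S0788.result h2 (by omega) Q' hQ') _ (nondeg_plus _)

theorem index_two [Fintype F] [CharP F 2] [FiniteDimensional F M] (hn : 3 ≤ finrank F M) :
    (commutator (O (HQ F M))).index = 2 := by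
  rw [index_eq, ← coe_plusForm]
  exact Cfsg.Agent.LieClassical.OmegaReindex.index_omega_of_fin (n := 2 * finrank F M) (by simp; ring)
    (fun Q' hQ' => Cfsg.Agent.S0789.result (by omega) Q' hQ' (Or.inr (by omega))) _ (nondeg_plus _)

end Cfsg.Agent.H237.PL
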