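import Mathlib

/-!
# S3677, lattices: quotients by a centre `{1, ν}` (helper237)

`CQ N ν` : `ν` is a central element of `Γ` with `ν ^ 2 = 1` and the centre of the normal subgroup `N` is `N ∩ {1, ν}`.

* `CQ.lift` : elements of odd order of `N / Z(N)` lift to elements of the same order;
* `CQ.comm` : elements which commute modulo the centre commute, if one of them has odd order;
* `CQ.card_cent` : `|C(x̄)| |Z| = j |C_Γ(x) ∩ N|`, `j ∣ |Z|`, `j = 1` if `x` is not conjugate to `ν x` in `N`;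
* `CQ.fact_odd` : for `p` odd, index of `N` a divisor of `4`: `|C(x̄)|` and `|C_Γ(x)|` have the same `p`-part;
* `exists_conj` : if a cyclic subgroup contains a Sylow `r`-subgroup, every element whose centralizer has order
  divisible by `r` has a conjugate which commutes with a given element of order `r` of the cyclic subgroup.
-/

set_option autoImplicit false

universe u v

namespace Cfsg.Agent.H237.PL

open Subgroup

/-- `ν` generates the centre -/
structure CQ {Γ : Type u} [Group Γ] (N : Subgroup Γ) (ν : Γ) : Prop where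
  cen : ∀ g : Γ, ν * g = g * ν
  sq : ν * ν = 1
  mem : ∀ z : N, z ∈ center N ↔ (z : Γ) = 1 ∨ (z : Γ) = ν

section

variable {Γ : Type u} [Group Γ] {N : Subgroup Γ} {ν : Γ}

theorem CQ.z_sq (h : CQ N ν) {z : N} (hz : z ∈ center N) : z * z = 1 := by
  apply Subtype.ext
  rcases (h.mem z).1 hz with h1 | h1
  · rw [Subgroup.coe_mul, h1, one_mul]
    rfl
  · rw [Subgroup.coe_mul, h1, h.sq]
    rfl

theorem pow_odd_of_sq {G : Type*} [Group G] {z : G} (h : z * z = 1) {r : ℕ} (hr : Odd r) : z ^ r = z := by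
  obtain ⟨k, rfl⟩ := hr
  rw [pow_succ, pow_mul, pow_two, h, one_pow, one_mul]

theorem CQ.lift (h : CQ N ν) {r : ℕ} (hr : Odd r) {s : N ⧸ center N} (hs : s ^ r = 1) :
    ∃ y : N, (QuotientGroup.mk y : N ⧸ center N) = s ∧ y ^ r = 1 := by
  obtain ⟨y, rfl⟩ := QuotientGroup.mk_surjective s
  have h1 : y ^ r ∈ center N := by
    rw [← QuotientGroup.eq_one_iff, QuotientGroup.mk_pow]
    exact hs
  have h2 := h.z_sq h1
  refine ⟨y ^ r * y, ?_, ?_⟩
  · rw [QuotientGroup.mk_mul, (QuotientGroup.eq_one_iff _).2 h1, one_mul]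
  · have hc : Commute (y ^ r) y := (Commute.refl y).pow_left r
    rw [hc.mul_pow, pow_odd_of_sq h2 hr, h2]

theorem CQ.comm (h : CQ N ν) {r : ℕ} (hr : Odd r) {x y : N} (hy : y ^ r = 1)
    (hc : Commute (QuotientGroup.mk x : N ⧸ center N) (QuotientGroup.mk y)) : Commute x y := by
  have h1 : y⁻¹ * (x * y * x⁻¹) ∈ center N := by
    rw [← QuotientGroup.eq_one_iff]
    simp only [QuotientGroup.mk_mul, QuotientGroup.mk_inv]
    rw [hc.eq]
    group
  set z := y⁻¹ * (x * y * x⁻¹) with hz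
  have h2 := h.z_sq h1
  have h3 : x * y * x⁻¹ = y * z := by rw [hz]; group
  have h4 : Commute y z := (Subgroup.mem_center_iff.1 h1 y)
  have h5 : (x * y * x⁻¹) ^ r = 1 := by rw [conj_pow, hy]; group
  rw [h3, h4.mul_pow, hy, one_mul, pow_odd_of_sq h2 hr] at h5
  rw [h5, mul_one] at h3
  exact mul_inv_eq_iff_eq_mul.1 h3

/-- the centralizer in `N` as a subgroup of `Γ` -/
theorem card_cent_inf (x : N) :
    Nat.card (centralizer ({x} : Set N)) = Nat.card (centralizer ({(x : Γ)} : Set Γ) ⊓ N : Subgroup Γ) := by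
  refine Nat.card_congr ⟨fun g => ⟨(g : N), ?_, (g : N).2⟩, fun g => ⟨⟨g, g.2.2⟩, ?_⟩, fun g => rfl, fun g => rfl⟩
  · exact Subgroup.mem_centralizer_singleton_iff.2 (congrArg Subtype.val (Subgroup.mem_centralizer_singleton_iff.1 g.2))
  · exact Subgroup.mem_centralizer_singleton_iff.2 (Subtype.ext (Subgroup.mem_centralizer_singleton_iff.1 g.2.1))

theorem CQ.card_cent [Finite Γ] (h : CQ N ν) (x : N) : ∃ j : ℕ, j ∣ Nat.card (center N) ∧
    Nat.card (centralizer ({(QuotientGroup.mk x : N ⧸ center N)} : Set (N ⧸ center N))) * Nat.card (center N) =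
      j * Nat.card (centralizer ({(x : Γ)} : Set Γ) ⊓ N : Subgroup Γ) ∧
    ((∀ g : N, (g : Γ) * x * (g : Γ)⁻¹ ≠ ν * x) → j = 1) := by
  let S := N ⧸ center N
  let φ : N →* S := QuotientGroup.mk' (center N)
  set C := centralizer ({(QuotientGroup.mk x : S)} : Set S) with hC
  let P : Subgroup N := C.comap φ
  have hmemP : ∀ g : N, g ∈ P ↔ g * x * g⁻¹ * x⁻¹ ∈ center N := by
    intro g
    rw [← QuotientGroup.eq_one_iff (N := center N) (g * x * g⁻¹ * x⁻¹)]
    show φ g ∈ C ↔ _
    rw [hC, Subgroup.mem_centralizer_singleton_iff]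
    simp only [QuotientGroup.mk_mul, QuotientGroup.mk_inv]
    show (QuotientGroup.mk g : S) * QuotientGroup.mk x = QuotientGroup.mk x * QuotientGroup.mk g ↔ _
    constructor
    · intro h1
      rw [h1]
      group
    · intro h1
      have h2 := mul_inv_eq_one.1 h1
      exact mul_inv_eq_iff_eq_mul.1 h2
  have hcardP : Nat.card P = Nat.card C * Nat.card (center N) := by
    have h1 : Nat.card (φ.comp P.subtype).range = Nat.card C := by
      have : (φ.comp P.subtype).range = C := by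
        ext s
        constructor
        · rintro ⟨g, rfl⟩
          exact g.2
        · intro hs
          obtain ⟨g, rfl⟩ := QuotientGroup.mk_surjective s
          exact ⟨⟨g, hs⟩, rfl⟩
      rw [this]
    have h2 : Nat.card (φ.comp P.subtype).ker = Nat.card (center N) := by
      refine Nat.card_congr ⟨fun g => ⟨(g : P), ?_⟩, fun z => ⟨⟨z, ?_⟩, ?_⟩, fun g => rfl, fun g => rfl⟩
      · exact (QuotientGroup.eq_one_iff _).1 g.2
      · show φ (z : N) ∈ C
        rw [show φ (z : N) = 1 from (QuotientGroup.eq_one_iff _).2 z.2]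
        exact C.one_mem
      · exact (QuotientGroup.eq_one_iff _).2 z.2
    rw [← h1, ← h2, mul_comm, ← Subgroup.index_ker]
    exact (Subgroup.card_mul_index _).symm
  let f : P →* center N :=
    { toFun := fun g => ⟨(g : N) * x * (g : N)⁻¹ * x⁻¹, (hmemP g).1 g.2⟩
      map_one' := by apply Subtype.ext; show (1 : N) * x * 1⁻¹ * x⁻¹ = 1; group
      map_mul' := by
        intro g k
        apply Subtype.ext
        show (g : N) * (k : N) * x * ((g : N) * (k : N))⁻¹ * x⁻¹ = ((g : N) * x * (g : N)⁻¹ * x⁻¹) * ((k : N) * x * (k : N)⁻¹ * x⁻¹)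
        have h1 := Subgroup.mem_center_iff.1 ((hmemP k).1 k.2) (g : N)
        calc _ = ((g : N) * ((k : N) * x * (k : N)⁻¹ * x⁻¹)) * x * (g : N)⁻¹ * x⁻¹ := by group
          _ = (((k : N) * x * (k : N)⁻¹ * x⁻¹) * (g : N)) * x * (g : N)⁻¹ * x⁻¹ := by rw [h1]
          _ = ((k : N) * x * (k : N)⁻¹ * x⁻¹) * ((g : N) * x * (g : N)⁻¹ * x⁻¹) := by group
          _ = _ := (Subgroup.mem_center_iff.1 ((hmemP k).1 k.2) _).symm }
  have hker : Nat.card f.ker = Nat.card (centralizer ({(x : Γ)} : Set Γ) ⊓ N : Subgroup Γ) := by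
    rw [← card_cent_inf]
    refine Nat.card_congr ⟨fun g => ⟨(g : P), ?_⟩, fun g => ⟨⟨g, ?_⟩, ?_⟩, fun g => rfl, fun g => rfl⟩
    · have h1 : (((g : P) : N) * x * ((g : P) : N)⁻¹ * x⁻¹) = 1 := congrArg Subtype.val (MonoidHom.mem_ker.1 g.2)
      exact Subgroup.mem_centralizer_singleton_iff.2 (mul_inv_eq_iff_eq_mul.1 (mul_inv_eq_one.1 h1))
    · rw [hmemP]
      have h1 := Subgroup.mem_centralizer_singleton_iff.1 g.2
      rw [h1]
      convert (center N).one_mem using 1
      group
    · apply Subtype.ext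
      show (g : N) * x * (g : N)⁻¹ * x⁻¹ = 1
      have h1 := Subgroup.mem_centralizer_singleton_iff.1 g.2
      rw [h1]
      group
  refine ⟨Nat.card f.range, Subgroup.card_subgroup_dvd_card _, ?_, ?_⟩
  · rw [← hcardP, ← hker, ← Subgroup.index_ker, mul_comm]
    exact (Subgroup.card_mul_index _).symm
  · intro hno
    rw [Subgroup.card_eq_one, eq_bot_iff]
    rintro _ ⟨g, rfl⟩
    rw [Subgroup.mem_bot]
    apply Subtype.ext
    show (g : N) * x * (g : N)⁻¹ * x⁻¹ = 1
    have h1 := (h.mem _).1 ((hmemP g).1 g.2)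
    rcases h1 with h1 | h1
    · exact Subtype.ext h1
    · exact absurd (mul_inv_eq_iff_eq_mul.1 h1) (hno g)

theorem CQ.card_center_dvd (h : CQ N ν) : Nat.card (center N) ∣ 2 := by
  have h1 : ∀ z : center N, z = 1 ∨ ((z : N) : Γ) = ν := by
    intro z
    rcases (h.mem z).1 z.2 with h2 | h2
    · left
      exact Subtype.ext (Subtype.ext h2)
    · exact Or.inr h2
  by_cases h2 : ∃ z : center N, z ≠ 1
  · obtain ⟨z, hz⟩ := h2
    have h3 : Nat.card (center N) = 2 := by
      rw [Nat.card_eq_two_iff]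
      refine ⟨1, z, hz.symm, Set.eq_univ_iff_forall.2 fun y => ?_⟩
      rcases h1 y with h4 | h4
      · exact Or.inl h4
      · right
        rcases h1 z with h5 | h5
        · exact absurd h5 hz
        · exact Subtype.ext (Subtype.ext (h4.trans h5.symm))
    rw [h3]
  · push Not at h2
    have h3 : Nat.card (center N) = 1 := by
      rw [Nat.card_eq_one_iff_unique]
      exact ⟨⟨fun a b => (h2 a).trans (h2 b).symm⟩, ⟨1⟩⟩
    rw [h3]
    exact one_dvd _

theorem CQ.card_center_one (h : CQ N ν) (h1 : ν = 1) : Nat.card (center N) = 1 := by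
  rw [Nat.card_eq_one_iff_unique]
  have h2 : ∀ z : center N, z = 1 := by
    intro z
    rcases (h.mem z).1 z.2 with h2 | h2
    · exact Subtype.ext (Subtype.ext h2)
    · exact Subtype.ext (Subtype.ext (h2.trans h1))
  exact ⟨⟨fun a b => (h2 a).trans (h2 b).symm⟩, ⟨1⟩⟩

/-- the order of `C_Γ(x)` is the order of `C_Γ(x) ∩ N` times a divisor of the index of `N` -/
theorem card_inf_mul [Finite Γ] [N.Normal] (C : Subgroup Γ) : ∃ j, j ∣ N.index ∧ Nat.card C = j * Nat.card (C ⊓ N : Subgroup Γ) := by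
  refine ⟨N.relIndex C, Subgroup.relIndex_dvd_index_of_normal N C, ?_⟩
  have h1 : Nat.card (C ⊓ N : Subgroup Γ) = Nat.card (N.subgroupOf C) :=
    Nat.card_congr ⟨fun g => ⟨⟨g, g.2.1⟩, g.2.2⟩, fun g => ⟨g, g.1.2, g.2⟩, fun g => rfl, fun g => rfl⟩
  rw [h1, Subgroup.relIndex, mul_comm]
  exact (Subgroup.card_mul_index _).symm

theorem fact_mul_of_coprime {p a b : ℕ} (ha : a ≠ 0) (hb : b ≠ 0) (h : ¬ p ∣ a) :
    (a * b).factorization p = b.factorization p := by
  rw [Nat.factorization_mul ha hb, Finsupp.add_apply, Nat.factorization_eq_zero_of_not_dvd h, zero_add]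

/-- **`p` odd** -/
theorem CQ.fact_odd [Finite Γ] [N.Normal] (h : CQ N ν) {p : ℕ} (hp : p.Prime) (hp2 : p ≠ 2) (hN : N.index ∣ 4)
    (x : N) : (Nat.card (centralizer ({(QuotientGroup.mk x : N ⧸ center N)} : Set (N ⧸ center N)))).factorization p =
      (Nat.card (centralizer ({(x : Γ)} : Set Γ))).factorization p := by
  have hnd : ∀ j, j ∣ 4 → ¬ p ∣ j := by
    intro j hj h1
    have h2 := h1.trans hj
    have h3 : p ∣ 2 ^ 2 := by norm_num; exact h2
    exact hp2 ((Nat.prime_dvd_prime_iff_eq hp Nat.prime_two).1 (hp.dvd_of_dvd_pow h3))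
  obtain ⟨j, hj, h1, -⟩ := h.card_cent x
  obtain ⟨i, hi, h2⟩ := card_inf_mul (N := N) (centralizer ({(x : Γ)} : Set Γ))
  have hz := h.card_center_dvd
  have h24 : (2 : ℕ) ∣ 4 := by norm_num
  have p1 : 0 < Nat.card (centralizer ({(QuotientGroup.mk x : N ⧸ center N)} : Set (N ⧸ center N))) := Nat.card_pos
  have p2 : 0 < Nat.card (centralizer ({(x : Γ)} : Set Γ)) := Nat.card_pos
  have p3 : 0 < Nat.card (centralizer ({(x : Γ)} : Set Γ) ⊓ N : Subgroup Γ) := Nat.card_pos
  have p4 : 0 < Nat.card (center N) := Nat.card_pos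
  have hj0 : j ≠ 0 := by rintro rfl; exact absurd hj (by rw [zero_dvd_iff]; omega)
  have hi0 : i ≠ 0 := by rintro rfl; rw [zero_mul] at h2; omega
  rw [h2, fact_mul_of_coprime hi0 p3.ne' (hnd _ (hi.trans hN)), ← fact_mul_of_coprime hj0 p3.ne' (hnd _ ((hj.trans hz).trans h24)),
    ← h1, mul_comm, fact_mul_of_coprime p4.ne' p1.ne' (hnd _ (hz.trans h24))]

end

/-! ### a cyclic subgroup which contains a Sylow subgroup -/

theorem mem_zpowers_of_cyclic {S : Type u} [Group S] [Finite S] {r : ℕ} (hr : r.Prime) {A : Subgroup S}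
    (hA : IsCyclic A) {a b : S} (ha : a ∈ A) (hb : b ∈ A) (hoa : orderOf a = r) (hob : orderOf b = r) :
    b ∈ zpowers a := by
  classical
  have := Fintype.ofFinite A
  let a' : A := ⟨a, ha⟩
  let b' : A := ⟨b, hb⟩
  have ha' : orderOf a' = r := by rw [← hoa]; exact Subgroup.orderOf_mk a ha
  have hb' : orderOf b' = r := by rw [← hob]; exact Subgroup.orderOf_mk b hb
  have h1 := IsCyclic.card_pow_eq_one_le (α := A) hr.pos
  have h2 : (Finset.univ.filter fun z : A => z ∈ zpowers a').card = r := by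
    rw [← ha', ← Nat.card_zpowers, Nat.card_eq_fintype_card, Fintype.card_subtype]
  have h3 : (Finset.univ.filter fun z : A => z ∈ zpowers a') ⊆ (Finset.univ.filter fun z : A => z ^ r = 1) := by
    intro z hz
    rw [Finset.mem_filter] at hz ⊢
    obtain ⟨k, hk⟩ := hz.2
    refine ⟨Finset.mem_univ _, ?_⟩
    rw [← hk, ← ha', ← zpow_natCast, ← zpow_mul, mul_comm, zpow_mul, zpow_natCast, pow_orderOf_eq_one, one_zpow]
  have h4 := Finset.eq_of_subset_of_card_le h3 (by rw [h2]; exact h1)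
  have h5 : b' ∈ Finset.univ.filter fun z : A => z ^ r = 1 := by
    rw [Finset.mem_filter]
    exact ⟨Finset.mem_univ _, by rw [← hb', pow_orderOf_eq_one]⟩
  rw [← h4, Finset.mem_filter] at h5
  obtain ⟨k, hk⟩ := h5.2
  exact ⟨k, congrArg Subtype.val hk⟩

theorem exists_conj {S : Type u} [Group S] [Finite S] {r : ℕ} (hr : r.Prime) (A : Subgroup S) (hA : IsCyclic A)
    (hfull : r ^ (Nat.card S).factorization r ∣ Nat.card A) {y0 : S} (hy0 : y0 ∈ A) (ho : orderOf y0 = r) {x : S}
    (hx : r ∣ Nat.card (centralizer ({x} : Set S))) : ∃ s : S, Commute (s * x * s⁻¹) y0 := by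
  have := Fact.mk hr
  obtain ⟨y, hy⟩ := exists_prime_orderOf_dvd_card' r hx
  have hy' : orderOf (y : S) = r := by rw [← hy]; exact Subgroup.orderOf_coe y
  have hc : Commute (y : S) x := Subgroup.mem_centralizer_singleton_iff.1 y.2
  obtain ⟨P⟩ : Nonempty (Sylow r A) := inferInstance
  have hPc : Nat.card (P : Subgroup A) = r ^ (Nat.card A).factorization r := P.card_eq_multiplicity
  have hle : (Nat.card A).factorization r = (Nat.card S).factorization r := by
    apply le_antisymm
    · exact (Nat.factorization_le_iff_dvd Nat.card_pos.ne' Nat.card_pos.ne').2 (Subgroup.card_subgroup_dvd_card A) r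
    · exact (hr.pow_dvd_iff_le_factorization Nat.card_pos.ne').1 hfull
  let P' : Sylow r S := Sylow.ofCard ((P : Subgroup A).map A.subtype) (by
    rw [Subgroup.card_map_of_injective A.subtype_injective, hPc, hle])
  have hP' : (P' : Subgroup S) ≤ A := by
    show (P : Subgroup A).map A.subtype ≤ A
    exact Subgroup.map_subtype_le _
  have hyp : IsPGroup r (zpowers (y : S)) := by
    rw [IsPGroup.iff_card]
    exact ⟨1, by rw [Nat.card_zpowers, hy', pow_one]⟩
  obtain ⟨R, hR⟩ := hyp.exists_le_sylow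
  obtain ⟨s, hs⟩ := MulAction.exists_smul_eq S R P'
  have h1 : s * y * s⁻¹ ∈ A := by
    apply hP'
    rw [← hs]
    show s * y * s⁻¹ ∈ ((s • R : Sylow r S) : Subgroup S)
    rw [Sylow.coe_subgroup_smul]
    exact Subgroup.smul_mem_pointwise_smul _ _ _ (hR (mem_zpowers _))
  have h2 : orderOf (s * y * s⁻¹) = r := by rw [← hy']; exact orderOf_injective (MulAut.conj s).toMonoidHom (MulAut.conj s).injective _
  obtain ⟨k, hk⟩ := mem_zpowers_of_cyclic hr hA h1 hy0 h2 ho
  refine ⟨s, ?_⟩
  rw [← hk]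
  apply Commute.zpow_right
  have h3 := (hc.map (MulAut.conj s).toMonoidHom).symm
  simpa using h3

theorem card_cent_conj {S : Type u} [Group S] (s x : S) :
    Nat.card (centralizer ({s * x * s⁻¹} : Set S)) = Nat.card (centralizer ({x} : Set S)) := by
  refine Nat.card_congr ⟨fun g => ⟨s⁻¹ * g * s, ?_⟩, fun g => ⟨s * g * s⁻¹, ?_⟩, fun g => ?_, fun g => ?_⟩
  · rw [Subgroup.mem_centralizer_singleton_iff]
    have h := Subgroup.mem_centralizer_singleton_iff.1 g.2
    calc s⁻¹ * (g : S) * s * x = s⁻¹ * ((g : S) * (s * x * s⁻¹)) * s := by group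
      _ = _ := by rw [h]; group
  · rw [Subgroup.mem_centralizer_singleton_iff]
    have h := Subgroup.mem_centralizer_singleton_iff.1 g.2
    calc s * (g : S) * s⁻¹ * (s * x * s⁻¹) = s * ((g : S) * x) * s⁻¹ := by group
      _ = _ := by rw [h]; group
  · apply Subtype.ext
    show s * (s⁻¹ * g * s) * s⁻¹ = g
    group
  · apply Subtype.ext
    show s⁻¹ * (s * g * s⁻¹) * s = g
    group

end Cfsg.Agent.H237.PL
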