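import Mathlib
import Cfsg.Agent.H237.PL.Model
import Cfsg.Agent.H237.PL.Quot
import Cfsg.Agent.H286.CS.PList
import Cfsg.Agent.H431.CS.Defs

/-!
# S3677, lattices of `PΩ⁺`: models and parity (helper237)

* parity (`ev`, H286) under direct sums, conjugation, for `DO A`;
* `isoE`, `modelE` : the model for any quadratic space isometric to the standard one; `mem_centerE`;
* `formula` : `gcd(4, q^n - 1) |C(x̄)| = |KK Q' X|` in any model.
-/

set_option autoImplicit false
set_option linter.unusedSectionVars false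

universe u v w

namespace Cfsg.Agent.H237.PL

open QuadraticMap Module
open Cfsg.Agent.LieClassical.OrthCore Cfsg.Agent.LieClassical.OrthFinite Cfsg.Agent.LieClassical.OrthForms
open Cfsg.Agent.H160.QSpin Cfsg.Agent.H955
open Cfsg.Agent.H286.CS (ev Mult KK lin lin_mem_O lin_apply exists_b card_center_mul card_cent_mul card_KX_eq)

/-! ### parity -/

section parity

variable {F : Type v} [Field F] {V : Type*} [AddCommGroup V] [Module F V] {W : Type*} [AddCommGroup W] [Module F W]

theorem cj_eq_tr (e : V ≃ₗ[F] W) (g : V ≃ₗ[F] V) : cj e g = tr e g := rfl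

theorem ev_cj (e : V ≃ₗ[F] W) (g : V ≃ₗ[F] V) : ev (cj e g) ↔ ev g := by
  rw [ev, ev, cj_eq_tr, fixS_tr, LinearEquiv.finrank_map_eq]

theorem ev_pr [FiniteDimensional F V] [FiniteDimensional F W] (g : V ≃ₗ[F] V) (h : W ≃ₗ[F] W) :
    ev (pr g h) ↔ (ev g ↔ ev h) := by
  have h2 : fixS (pr g h) = (fixS g).prod (fixS h) := by
    ext x
    rw [mem_fixS, Submodule.mem_prod, mem_fixS, mem_fixS]
    constructor
    · intro hx
      exact ⟨congrArg Prod.fst hx, congrArg Prod.snd hx⟩
    · rintro ⟨hx, hy⟩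
      exact Prod.ext hx hy
  rw [ev, ev, ev, h2, (prodSub (fixS g) (fixS h)).finrank_eq, Module.finrank_prod, Nat.even_add]

theorem finrank_prodS [FiniteDimensional F V] [FiniteDimensional F W] (P : Submodule F V) (R : Submodule F W) :
    finrank F (P.prod R) = finrank F P + finrank F R := by
  rw [(prodSub P R).finrank_eq, Module.finrank_prod]

/-- elements of `GL(M)` are even -/
theorem ev_Dl {M : Type w} [AddCommGroup M] [Module F M] [FiniteDimensional F M] (A : M ≃ₗ[F] M) : ev (Dl A) := by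
  have h1 : fixS (Dl A) = (LinearMap.ker ((A.symm : M →ₗ[F] M) - LinearMap.id).dualMap).prod (fixS A) := by
    ext x
    rw [mem_fixS, Submodule.mem_prod, mem_fixS, LinearMap.mem_ker, Dl_apply]
    constructor
    · intro hx
      refine ⟨?_, congrArg Prod.snd hx⟩
      ext m
      have h2 := LinearMap.congr_fun (congrArg Prod.fst hx) m
      show x.1 (A.symm m - m) = 0
      rw [map_sub, sub_eq_zero]
      exact h2
    · rintro ⟨hx, hy⟩
      apply Prod.ext
      · ext m
        have h2 : x.1 (A.symm m - m) = 0 := LinearMap.congr_fun hx m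
        rw [map_sub, sub_eq_zero] at h2
        exact h2
      · exact hy
  have h2 : finrank F (LinearMap.ker ((A.symm : M →ₗ[F] M) - LinearMap.id).dualMap) = finrank F (fixS A) := by
    have h3 := LinearMap.finrank_range_add_finrank_ker ((A.symm : M →ₗ[F] M) - LinearMap.id)
    have h4 := LinearMap.finrank_range_add_finrank_ker ((A.symm : M →ₗ[F] M) - LinearMap.id).dualMap
    rw [LinearMap.finrank_range_dualMap_eq_finrank_range, Subspace.dual_finrank_eq] at h4
    have h5 : fixS A = LinearMap.ker ((A.symm : M →ₗ[F] M) - LinearMap.id) := by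
      ext m
      rw [mem_fixS, LinearMap.mem_ker]
      show A m = m ↔ A.symm m - m = 0
      rw [sub_eq_zero, LinearEquiv.symm_apply_eq]
      exact eq_comm
    rw [h5]
    omega
  rw [ev, h1, finrank_prodS, h2]
  exact ⟨_, rfl⟩

theorem ev_DO {M : Type w} [AddCommGroup M] [Module F M] [FiniteDimensional F M] (A : M ≃ₗ[F] M) :
    ev ((DO A : O (HQ F M)) : (Dual F M × M) ≃ₗ[F] (Dual F M × M)) := ev_Dl A

theorem mult_cj {Q : QuadraticForm F V} {Q' : QuadraticForm F W} {e : V ≃ₗ[F] W} (he : IsIso Q Q' e) (h : Mult Q) :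
    Mult Q' := by
  intro g hg k hk
  have h1 := h _ (cj_mem_O he.symm hg) _ (cj_mem_O he.symm hk)
  rwa [← cj_mul, ev_cj, ev_cj, ev_cj] at h1

theorem KK_cj {Q : QuadraticForm F V} {Q' : QuadraticForm F W} {e : V ≃ₗ[F] W} (he : IsIso Q Q' e)
    {X g : V ≃ₗ[F] V} (hg : g ∈ KK Q X) : cj e g ∈ KK Q' (cj e X) := by
  refine ⟨cj_mem_O he hg.1, (ev_cj e g).2 hg.2.1, ?_⟩
  rcases hg.2.2 with h | h
  · left
    intro v
    rw [cj_apply, cj_apply, cj_apply, cj_apply, LinearEquiv.symm_apply_apply, LinearEquiv.symm_apply_apply, h]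
  · right
    intro v
    rw [cj_apply, cj_apply, cj_apply, cj_apply, LinearEquiv.symm_apply_apply, LinearEquiv.symm_apply_apply, h, map_neg]

/-- transport of `KK` -/
theorem card_KK_cj {Q : QuadraticForm F V} {Q' : QuadraticForm F W} {e : V ≃ₗ[F] W} (he : IsIso Q Q' e)
    (X : V ≃ₗ[F] V) : Nat.card (KK Q' (cj e X)) = Nat.card (KK Q X) := by
  symm
  refine Nat.card_congr (Equiv.ofBijective (fun g => ⟨cj e g.1, KK_cj he g.2⟩) ⟨?_, ?_⟩)
  · intro g g' hgg
    exact Subtype.ext ((cjEquiv e).injective (congrArg Subtype.val hgg))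
  · rintro ⟨g, hg⟩
    have h1 := KK_cj he.symm hg
    have h2 : cj e.symm (cj e X) = X := (cjEquiv e).symm_apply_apply X
    rw [h2] at h1
    exact ⟨⟨_, h1⟩, Subtype.ext ((cjEquiv e).apply_symm_apply g)⟩

end parity

/-! ### the model -/

section model

variable {F : Type v} [Field F] {V' : Type w} [AddCommGroup V'] [Module F V'] {n : ℕ}
  {Q : QuadraticForm F (Fin n ⊕ Fin n → F)} {Q' : QuadraticForm F V'} {e : (Fin n ⊕ Fin n → F) ≃ₗ[F] V'}

theorem quadPlus_eq : LieClassical.OmegaReindex.quadPlus n F = plusForm n F :=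
  DFunLike.coe_injective ((LieClassical.OmegaReindex.coe_quadPlus (m := n) (F := F)).trans (coe_plusForm n F).symm)

/-- from matrices to the model -/
noncomputable def isoE (he : IsIso Q Q' e) : Cfsg.isometryGroup F ⇑Q ≃* O Q' :=
  (isometryEquiv Q).trans (oEquiv e he)

theorem coe_isoE (he : IsIso Q Q' e) (g : Cfsg.isometryGroup F ⇑Q) : (isoE he g : V' ≃ₗ[F] V') = cj e (lin Q g) := rfl

/-- the model -/
noncomputable def modelE (he : IsIso Q Q' e) :
    Cfsg.POmega F ⇑Q ≃* (commutator (O Q') ⧸ Subgroup.center (commutator (O Q'))) :=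
  quotientCenterCongr (commEquiv (isoE he))

variable [Fintype F]

/-- **The orders of centralizers in the model.** -/
theorem formula (hQe : Q = LieClassical.OmegaReindex.quadPlus n F) (hn : 4 ≤ n) (he : IsIso Q Q' e)
    (X : commutator (O Q'))
    (H : (2 : F) ≠ 0 → ∀ c : F, c ≠ 0 → ∃ (u u' : V') (hu : Q' u ≠ 0) (hu' : Q' u' ≠ 0), Q' u = 1 ∧ Q' u' = c ∧
      ∀ v, refl Q' u hu (refl Q' u' hu' (((X : O Q') : V' ≃ₗ[F] V') v)) =
        ((X : O Q') : V' ≃ₗ[F] V') (refl Q' u hu (refl Q' u' hu' v))) :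
    Nat.gcd 4 (Fintype.card F ^ n - 1) * Nat.card (Subgroup.centralizer
      ({(QuotientGroup.mk X : commutator (O Q') ⧸ Subgroup.center (commutator (O Q')))} : Set _)) =
        Nat.card (KK Q' ((X : O Q') : V' ≃ₗ[F] V')) := by
  have hQ : (polarBilin Q).Nondegenerate := by rw [hQe]; exact LieClassical.OmegaReindex.quadPlus_nondegenerate
  have hs : ∃ u, u ≠ 0 ∧ Q u = 0 := by rw [hQe]; exact Cfsg.Agent.LieClassical.OmegaReindex.quadPlus_isotropic (by omega)
  have hci : 3 ≤ Fintype.card (Fin n ⊕ Fin n) := by rw [H286.CS.card_iota]; omega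
  have h : (∃ θ : F, θ ≠ 0 ∧ θ ≠ 1) ∨ Fintype.card (Fin n ⊕ Fin n) ≠ 4 := Or.inr (by rw [H286.CS.card_iota]; omega)
  have hev : Even (Fintype.card (Fin n ⊕ Fin n)) := by rw [H286.CS.card_iota]; exact even_two_mul _
  obtain ⟨x, rfl⟩ := (commEquiv (isoE he)).surjective X
  have h1 : Nat.card (Subgroup.centralizer ({(QuotientGroup.mk (commEquiv (isoE he) x) :
      commutator (O Q') ⧸ Subgroup.center (commutator (O Q')))} : Set _)) =
      Nat.card (Subgroup.centralizer ({(QuotientGroup.mk x : Cfsg.POmega F ⇑Q)} : Set (Cfsg.POmega F ⇑Q))) :=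
    (H431.CS.card_cent_congr (modelE he) (QuotientGroup.mk x : Cfsg.POmega F ⇑Q)).symm
  have h2 : (((commEquiv (isoE he) x : commutator (O Q')) : O Q') : V' ≃ₗ[F] V') =
    cj e (lin Q (x : Cfsg.isometryGroup F ⇑Q)) := rfl
  rw [h1, h2, card_KK_cj he]
  obtain ⟨j, hj0, hj2⟩ : ∃ j : ℕ, ((2 : F) = 0 → j = 1) ∧ ((2 : F) ≠ 0 → j = 2) := by
    by_cases h2 : (2 : F) = 0
    · exact ⟨1, fun _ => rfl, fun h3 => absurd h2 h3⟩
    · exact ⟨2, fun h3 => absurd h3 h2, fun _ => rfl⟩
  have hcm := card_center_mul (F := F) hn hj0 hj2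
  rw [← hQe] at hcm
  rw [← hcm, ← card_KX_eq hev hQ h, ← card_cent_mul hQ h hci hs x ?_ hj0 hj2, mul_comm]
  intro h2'
  refine exists_b h2' hQ h fun c hc0 => ?_
  obtain ⟨u, u', hu, hu', e1, e2, hc⟩ := H h2' c hc0
  have hes : ∀ y : V', Q (e.symm y) = Q' y := he.symm
  refine ⟨e.symm u, e.symm u', by rw [hes]; exact hu, by rw [hes]; exact hu', by rw [hes, e1], by rw [hes, e2], ?_⟩
  have k1 : ∀ (y : V') (hy : Q' y ≠ 0) (hy' : Q (e.symm y) ≠ 0) (v : Fin n ⊕ Fin n → F),
      e (refl Q (e.symm y) hy' v) = refl Q' y hy (e v) := by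
    intro y hy hy' v
    have h3 := cj_refl (e := e) he (v := e.symm y) hy' (by rw [LinearEquiv.apply_symm_apply]; exact hy)
    have h4 := LinearEquiv.congr_fun h3 (e v)
    rw [cj_apply'] at h4
    rw [h4, refl_apply, refl_apply, LinearEquiv.apply_symm_apply]
  intro v
  apply e.injective
  rw [k1 u hu, k1 u' hu']
  have h5 := hc (e v)
  rw [h2, cj_apply'] at h5
  have h6 := k1 u' hu' (by rw [hes]; exact hu') v
  have h7 := k1 u hu (by rw [hes]; exact hu) (refl Q (e.symm u') (by rw [hes]; exact hu') v)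
  rw [← h6, ← h7, cj_apply'] at h5
  exact h5

omit [Fintype F] in
theorem lin_mem_isoE (he : IsIso Q Q' e) (g : Cfsg.isometryGroup F ⇑Q) (v : Fin n ⊕ Fin n → F) :
    (isoE he g : V' ≃ₗ[F] V') (e v) =
      e (((g : Matrix.GeneralLinearGroup (Fin n ⊕ Fin n) F) : Matrix (Fin n ⊕ Fin n) (Fin n ⊕ Fin n) F).mulVec v) := by
  rw [coe_isoE, cj_apply']
  rfl

omit [Fintype F] in
/-- the centre in a model -/
theorem mem_centerE (hQe : Q = plusForm n F) (hn : 2 ≤ n) (he : IsIso Q Q' e) (z : commutator (O Q')) :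
    z ∈ Subgroup.center (commutator (O Q')) ↔
      ((z : O Q') : V' ≃ₗ[F] V') = 1 ∨ ((z : O Q') : V' ≃ₗ[F] V') = LinearEquiv.neg F := by
  obtain ⟨y, rfl⟩ := (commEquiv (isoE he)).surjective z
  have h1 : commEquiv (isoE he) y ∈ Subgroup.center (commutator (O Q')) ↔
      y ∈ Subgroup.center (Cfsg.Omega F ⇑Q) := by
    rw [← map_center_mulEquiv (commEquiv (isoE he))]
    exact Subgroup.mem_map_iff_mem (commEquiv (isoE he)).injective
  have h2 := @Cfsg.Agent.LieClassical.OrthCenter.mem_center_omega_iff (Fin n ⊕ Fin n) _ _ F _ Q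
  rw [h1, h2 (by rw [hQe]; exact nondeg_plus n) (by simp; omega) (by rw [hQe]; exact exists_sing (by omega)) y,
    coe_commEquiv]
  have key : ∀ c : F, (((y : Cfsg.isometryGroup F ⇑Q) :
      Matrix.GeneralLinearGroup (Fin n ⊕ Fin n) F) : Matrix (Fin n ⊕ Fin n) (Fin n ⊕ Fin n) F) = c • 1 ↔
      ∀ x, (isoE he (y : Cfsg.isometryGroup F ⇑Q) : V' ≃ₗ[F] V') x = c • x := by
    intro c
    constructor
    · intro h x
      obtain ⟨x, rfl⟩ := e.surjective x
      rw [lin_mem_isoE, h, Matrix.smul_mulVec, Matrix.one_mulVec, map_smul]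
    · intro h
      apply Matrix.mulVec_injective
      funext x
      rw [Matrix.smul_mulVec, Matrix.one_mulVec]
      apply e.injective
      rw [← lin_mem_isoE he, h, map_smul]
  refine or_congr ?_ ?_
  · have := key 1
    rw [one_smul] at this
    rw [this]
    constructor
    · intro h
      apply LinearEquiv.ext
      intro x
      rw [h x, one_smul]
      rfl
    · intro h x
      rw [h, one_smul]
      rfl
  · have := key (-1)
    rw [neg_smul, one_smul] at this
    rw [this]
    constructor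
    · intro h
      apply LinearEquiv.ext
      intro x
      exact (h x).trans (neg_one_smul F x)
    · intro h x
      rw [h]
      exact (neg_one_smul F x).symm

omit [Fintype F] in
/-- minus one -/
def nu (Q' : QuadraticForm F V') : O Q' := ⟨LinearEquiv.neg F, fun x => QuadraticMap.map_neg Q' x⟩

omit [Fintype F] in
theorem cqE (hQe : Q = plusForm n F) (hn : 2 ≤ n) (he : IsIso Q Q' e) : CQ (commutator (O Q')) (nu Q') where
  cen g := by
    apply Subtype.ext
    apply LinearEquiv.ext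
    intro x
    show -((g : V' ≃ₗ[F] V') x) = (g : V' ≃ₗ[F] V') (-x)
    rw [map_neg]
  sq := by
    apply Subtype.ext
    apply LinearEquiv.ext
    intro x
    show -(-x) = x
    rw [neg_neg]
  mem z := by
    rw [mem_centerE hQe hn he z]
    exact or_congr ⟨fun h => Subtype.ext h, fun h => by rw [h]; rfl⟩ ⟨fun h => Subtype.ext h, fun h => by rw [h]; rfl⟩

theorem index_dvdE (hQe : Q = plusForm n F) (hn : 3 ≤ n) (he : IsIso Q Q' e) : (commutator (O Q')).index ∣ 4 := by
  rw [← Cfsg.Agent.LieClassical.OmegaReindex.index_commutator_congr (isoE he)]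
  by_cases h2 : (2 : F) = 0
  · have hch : CharP F 2 := CharTwo.of_one_ne_zero_of_two_eq_zero one_ne_zero h2
    have h1 : (Cfsg.Omega F ⇑Q).index = 2 := by
      exact Cfsg.Agent.LieClassical.OmegaReindex.index_omega_of_fin (n := 2 * n) (by simp; ring)
        (fun Q' hQ' => Cfsg.Agent.S0789.result (by omega) Q' hQ' (Or.inr (by omega))) _ (by rw [hQe]; exact nondeg_plus n)
    rw [show (commutator (Cfsg.isometryGroup F ⇑Q)).index = 2 from h1]
    norm_num
  · have h1 : (Cfsg.Omega F ⇑Q).index = 4 := by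
      exact Cfsg.Agent.LieClassical.OmegaReindex.index_omega_of_fin (n := 2 * n) (by simp; ring)
        (fun Q' hQ' => Cfsg.Agent.S0788.result h2 (by omega) Q' hQ') _ (by rw [hQe]; exact nondeg_plus n)
    rw [show (commutator (Cfsg.isometryGroup F ⇑Q)).index = 4 from h1]

end model

end Cfsg.Agent.H237.PL
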