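import Mathlib
import Cfsg.Agent.H237.PL.Model
import Cfsg.Agent.H326.CGU.Irr

/-!
# S3677, lattices of `PΩ⁺`: the field `K` in the model (helper237)

`K / F` finite, `M = K`, `Tw : Kˣ →* O (HQ F K)`.

* `block` : an isometry intertwining `Tw w` and `Tw w'` comes from `GL(K)`, if `w'⁻¹` is not conjugate to `w`;
* `conj_eq` : the conjugacy lemma (`[K : F]` odd);
* `mem_comm_iff` : `g Tw w = Tw w g ↔ g = DO A`, `A` commutes with `w` (`w² ≠ 1`);
* `no_neg` : `g Tw w g⁻¹ ≠ Tw (-w)` if `w ∉ F`;
* `comm_of_degree` : the centralizer of `w` in `GL(K)` only depends on the degree of `w`;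
* `card_comm` : `|C(Tw w)| = |GL_m(q^k)|`.
-/

set_option autoImplicit false

universe u v w

namespace Cfsg.Agent.H237.PL

open Module Polynomial

/-! ### intertwining -/

section inter

variable {F : Type*} [Field F] {V V' : Type*} [AddCommGroup V] [Module F V] [AddCommGroup V'] [Module F V']

theorem inter {T : Module.End F V} {T' : Module.End F V'} {f : V →ₗ[F] V'} (h : ∀ v, f (T v) = T' (f v)) (μ : F[X])
    (v : V) : f (aeval T μ v) = aeval T' μ (f v) := by
  induction μ using Polynomial.induction_on' with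
  | add p q hp hq => rw [map_add, map_add, LinearMap.add_apply, LinearMap.add_apply, map_add, hp, hq]
  | monomial n a =>
    rw [aeval_monomial, aeval_monomial]
    show f (algebraMap F (Module.End F V) a ((T ^ n) v)) = algebraMap F (Module.End F V') a ((T' ^ n) (f v))
    rw [Module.algebraMap_end_apply, Module.algebraMap_end_apply, map_smul]
    congr 1
    clear a
    induction n generalizing v with
    | zero => rfl
    | succ n ih =>
      rw [pow_succ, pow_succ]
      show f ((T ^ n) (T v)) = (T' ^ n) (T' (f v))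
      rw [ih, h]

end inter

variable {F : Type v} [Field F] {K : Type w} [Field K] [Algebra F K]

/-- multiplication -/
def mu : Kˣ →* (K ≃ₗ[F] K) where
  toFun w :=
    { toFun := fun a => (w : K) * a
      map_add' := fun a b => mul_add _ a b
      map_smul' := fun c a => by rw [mul_smul_comm]; rfl
      invFun := fun a => ((w⁻¹ : Kˣ) : K) * a
      left_inv := fun a => by
        show ((w⁻¹ : Kˣ) : K) * ((w : K) * a) = a
        rw [← mul_assoc, Units.inv_mul, one_mul]
      right_inv := fun a => by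
        show (w : K) * (((w⁻¹ : Kˣ) : K) * a) = a
        rw [← mul_assoc, Units.mul_inv, one_mul] }
  map_one' := by
    ext a
    exact one_mul a
  map_mul' w w' := by
    ext a
    exact mul_assoc _ _ _

theorem mu_apply (w : Kˣ) (a : K) : (mu w : K ≃ₗ[F] K) a = (w : K) * a := rfl

theorem mu_injective : Function.Injective (mu : Kˣ → (K ≃ₗ[F] K)) := by
  intro w w' h
  have := LinearEquiv.congr_fun h (1 : K)
  rw [mu_apply, mu_apply, mul_one, mul_one] at this
  exact Units.ext this

/-- the torus -/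
def Tw : Kˣ →* LieClassical.OrthCore.O (HQ F K) := DO.comp mu

theorem Tw_injective : Function.Injective (Tw : Kˣ → LieClassical.OrthCore.O (HQ F K)) :=
  DO_injective.comp mu_injective

/-- the action on the dual -/
def rho : K →ₐ[F] Module.End F (Dual F K) :=
  AlgHom.ofLinearMap
    { toFun := fun a => (Algebra.lmul F K a).dualMap
      map_add' := fun a b => by
        ext φ x
        show φ ((a + b) * x) = φ (a * x) + φ (b * x)
        rw [add_mul, map_add]
      map_smul' := fun c a => by
        ext φ x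
        show φ ((c • a) * x) = c • φ (a * x)
        rw [smul_mul_assoc, map_smul] }
    (by
      ext φ x
      show φ (1 * x) = φ x
      rw [one_mul])
    (by
      intro a b
      ext φ x
      show φ ((a * b) * x) = φ (b * (a * x))
      rw [mul_comm a b, mul_assoc])

theorem rho_apply (a : K) (φ : Dual F K) (x : K) : rho a φ x = φ (a * x) := rfl

theorem Tw_apply (w : Kˣ) (x : Dual F K × K) :
    ((Tw w : LieClassical.OrthCore.O (HQ F K)) : (Dual F K × K) ≃ₗ[F] (Dual F K × K)) x = (rho ((w⁻¹ : Kˣ) : K) x.1, (w : K) * x.2) := rfl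

theorem rho_inj {a : K} (ha : a ≠ 0) {φ : Dual F K} (h : rho a φ = 0) : φ = 0 := by
  ext x
  have := LinearMap.congr_fun h (a⁻¹ * x)
  rw [rho_apply, mul_inv_cancel_left₀ ha] at this
  exact this

theorem aeval_lmul (w : K) (μ : F[X]) : aeval (Algebra.lmul F K w) μ = Algebra.lmul F K (aeval w μ) :=
  aeval_algHom_apply _ _ _

theorem aeval_rho (w : K) (μ : F[X]) : aeval (rho w : Module.End F (Dual F K)) μ = rho (aeval w μ) :=
  aeval_algHom_apply _ _ _

/-- a linear map `A` with `A (w a) = w' A a` -/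
theorem lmul_inter {w w' : K} {A : K →ₗ[F] K} (h : ∀ a, A (w * a) = w' * A a) (μ : F[X]) (a : K) :
    A (aeval w μ * a) = aeval w' μ * A a := by
  have h1 := inter (T := Algebra.lmul F K w) (T' := Algebra.lmul F K w') (f := A) h μ a
  rw [aeval_lmul, aeval_lmul] at h1
  exact h1

/-- **isometries intertwining two elements of the torus** -/
theorem block [FiniteDimensional F K] {w w' : Kˣ} {g : LieClassical.OrthCore.O (HQ F K)} (hg : g * Tw w = Tw w' * g)
    (h1 : aeval ((w'⁻¹ : Kˣ) : K) (minpoly F (w : K)) ≠ 0) (h2 : aeval (w' : K) (minpoly F ((w⁻¹ : Kˣ) : K)) ≠ 0) :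
    ∃ A : K ≃ₗ[F] K, DO A = g ∧ ∀ a, A ((w : K) * a) = (w' : K) * A a := by
  set G : (Dual F K × K) ≃ₗ[F] (Dual F K × K) := (g : (Dual F K × K) ≃ₗ[F] (Dual F K × K)) with hG
  have hG1 : ∀ x, G (((Tw w : LieClassical.OrthCore.O (HQ F K)) : (Dual F K × K) ≃ₗ[F] (Dual F K × K)) x) =
      ((Tw w' : LieClassical.OrthCore.O (HQ F K)) : (Dual F K × K) ≃ₗ[F] (Dual F K × K)) (G x) :=
    fun x => LinearEquiv.congr_fun (congrArg Subtype.val hg) x
  have k1 : ∀ m : K, (G (0, m)).1 = 0 := by
    intro m
    let f : K →ₗ[F] Dual F K := (LinearMap.fst F (Dual F K) K).comp ((G : _ →ₗ[F] _).comp (LinearMap.inr F (Dual F K) K))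
    have hf : ∀ a, f (Algebra.lmul F K (w : K) a) = rho ((w'⁻¹ : Kˣ) : K) (f a) := by
      intro a
      have h3 := congrArg Prod.fst (hG1 (0, a))
      rw [Tw_apply, Tw_apply, map_zero] at h3
      exact h3
    have h3 := inter hf (minpoly F (w : K)) m
    rw [aeval_lmul, aeval_rho, minpoly.aeval, map_zero, LinearMap.zero_apply, map_zero] at h3
    exact rho_inj h1 h3.symm
  have k2 : ∀ φ : Dual F K, (G (φ, 0)).2 = 0 := by
    intro φ
    let f : Dual F K →ₗ[F] K := (LinearMap.snd F (Dual F K) K).comp ((G : _ →ₗ[F] _).comp (LinearMap.inl F (Dual F K) K))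
    have hf : ∀ a, f (rho ((w⁻¹ : Kˣ) : K) a) = Algebra.lmul F K (w' : K) (f a) := by
      intro a
      have h3 := congrArg Prod.snd (hG1 (a, 0))
      rw [Tw_apply, Tw_apply, mul_zero] at h3
      exact h3
    have h3 := inter hf (minpoly F ((w⁻¹ : Kˣ) : K)) φ
    rw [aeval_lmul, aeval_rho, minpoly.aeval, map_zero, LinearMap.zero_apply, map_zero] at h3
    exact (mul_eq_zero.1 h3.symm).resolve_left h2
  obtain ⟨A, hA⟩ := exists_DO g k1 k2
  refine ⟨A, hA, fun a => ?_⟩
  have h3 : A * mu w = mu w' * A := by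
    apply DO_injective
    rw [map_mul, map_mul, hA]
    exact hg
  exact LinearEquiv.congr_fun h3 a

/-- **The conjugacy lemma.** -/
theorem conj_eq [Finite F] [FiniteDimensional F K] (hodd : Odd (finrank F K)) {w u : K}
    (hu : aeval u (minpoly F w) = 0) (h : ∀ σ : K ≃ₐ[F] K, σ w = u → σ u = w) : u = w := by
  have : Finite K := Module.finite_of_finite F
  obtain ⟨σ, hσ⟩ := minpoly.exists_algEquiv_of_root' (Algebra.IsAlgebraic.isAlgebraic w) hu
  have h2 : (σ ^ 2) w = w := by
    rw [pow_two]
    show σ (σ w) = w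
    rw [hσ]
    exact h σ hσ
  have h3 : σ ^ (finrank F K) = 1 := by
    rw [← IsGalois.card_aut_eq_finrank F K]
    exact pow_card_eq_one'
  obtain ⟨k, hk⟩ := hodd
  have h4 : ∀ j : ℕ, ((σ ^ 2) ^ j) w = w := by
    intro j
    induction j with
    | zero => rfl
    | succ j ih =>
      rw [pow_succ]
      show ((σ ^ 2) ^ j) ((σ ^ 2) w) = w
      rw [h2, ih]
  have h5 : (σ ^ (finrank F K)) w = u := by
    rw [hk, pow_succ', pow_mul]
    show σ (((σ ^ 2) ^ k) w) = u
    rw [h4, hσ]
  rw [h3] at h5
  exact h5.symm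

section count

variable [Finite F] [FiniteDimensional F K]

theorem inv_ne_root (hodd : Odd (finrank F K)) {w : Kˣ} (hw : w ^ 2 ≠ 1) :
    aeval ((w⁻¹ : Kˣ) : K) (minpoly F (w : K)) ≠ 0 := by
  intro h
  have h1 := conj_eq hodd h (fun σ hσ => by
    rw [Units.val_inv_eq_inv_val] at hσ ⊢
    rw [map_inv₀, hσ, inv_inv])
  have h2 : w⁻¹ = w := Units.ext h1
  apply hw
  rw [pow_two]
  nth_rewrite 1 [← h2]
  exact inv_mul_cancel w

/-- the centralizer of `Tw w` -/
theorem mem_comm_iff (hodd : Odd (finrank F K)) {w : Kˣ} (hw : w ^ 2 ≠ 1) (g : LieClassical.OrthCore.O (HQ F K)) :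
    g * Tw w = Tw w * g ↔ ∃ A : K ≃ₗ[F] K, DO A = g ∧ ∀ a, A ((w : K) * a) = (w : K) * A a := by
  constructor
  · intro h
    refine block h (inv_ne_root hodd hw) ?_
    have h1 := inv_ne_root (F := F) hodd (w := w⁻¹) (by rwa [inv_pow, ne_eq, inv_eq_one])
    rwa [inv_inv] at h1
  · rintro ⟨A, rfl, hA⟩
    show DO A * DO (mu w) = DO (mu w) * DO A
    rw [← map_mul, ← map_mul]
    congr 1
    ext a
    exact hA a

/-- `w` in `GL(K)` -/
theorem card_comm (hodd : Odd (finrank F K)) {w : Kˣ} (hw : w ^ 2 ≠ 1) :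
    Nat.card (Subgroup.centralizer ({Tw w} : Set (LieClassical.OrthCore.O (HQ F K)))) =
      Nat.card {A : K ≃ₗ[F] K // ∀ a, A ((w : K) * a) = (w : K) * A a} := by
  symm
  refine Nat.card_congr (Equiv.ofBijective (fun A => ⟨DO A.1, ?_⟩) ⟨?_, ?_⟩)
  · rw [Subgroup.mem_centralizer_singleton_iff, mem_comm_iff hodd hw]
    exact ⟨A.1, rfl, A.2⟩
  · intro A B h
    exact Subtype.ext (DO_injective (congrArg Subtype.val h))
  · rintro ⟨g, hg⟩
    rw [Subgroup.mem_centralizer_singleton_iff, mem_comm_iff hodd hw] at hg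
    obtain ⟨A, hA, h2⟩ := hg
    exact ⟨⟨A, h2⟩, Subtype.ext hA⟩

omit [Finite F] in
/-- elements of the base field -/
theorem mem_range_of_natDegree_le {w : K} (hodd : Odd (finrank F K)) (h : (minpoly F w).natDegree ≤ 2) :
    (minpoly F w).natDegree = 1 := by
  have h1 : (minpoly F w).natDegree ∣ finrank F K := minpoly.degree_dvd (Algebra.IsIntegral.isIntegral w)
  have h2 := minpoly.natDegree_pos (Algebra.IsIntegral.isIntegral (R := F) w)
  have h3 : (minpoly F w).natDegree ≠ 2 := by
    intro h4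
    rw [h4] at h1
    exact (Nat.not_even_iff_odd.2 hodd) (even_iff_two_dvd.2 h1)
  omega

/-- **no sign** -/
theorem no_neg (h2 : (2 : F) ≠ 0) (hodd : Odd (finrank F K)) {w : Kˣ} (hw : (minpoly F (w : K)).natDegree ≠ 1)
    (g : LieClassical.OrthCore.O (HQ F K)) : g * Tw w ≠ Tw (-w) * g := by
  intro hg
  have h2K : (2 : K) ≠ 0 := by
    intro h
    apply h2
    apply (algebraMap F K).injective
    rw [map_zero, map_ofNat]
    exact h
  have key : ∀ u : K, u = -u⁻¹ → u ≠ 0 → (minpoly F u).natDegree = 1 := by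
    intro u hu hu0
    apply mem_range_of_natDegree_le hodd
    have h3 : aeval u (X ^ 2 + 1 : F[X]) = 0 := by
      simp only [map_add, map_pow, aeval_X, map_one]
      have : u * u = -1 := by
        nth_rewrite 2 [hu]
        rw [mul_neg, mul_inv_cancel₀ hu0]
      linear_combination this
    have h4 := Polynomial.natDegree_le_of_dvd (minpoly.dvd F u h3) (by
      intro h5
      have := congrArg (fun p => p.coeff 0) h5
      simp at this)
    refine h4.trans ?_
    have : (X ^ 2 + 1 : F[X]).natDegree = 2 := by compute_degree!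
    rw [this]
  have hdeg : (minpoly F ((w⁻¹ : Kˣ) : K)).natDegree = 1 → (minpoly F (w : K)).natDegree = 1 := by
    intro h
    rw [minpoly.natDegree_eq_one_iff] at h ⊢
    obtain ⟨c, hc⟩ := h
    refine ⟨c⁻¹, ?_⟩
    rw [map_inv₀, hc, Units.val_inv_eq_inv_val, inv_inv]
  have e1 : (((-w)⁻¹ : Kˣ) : K) = -(w : K)⁻¹ := by
    rw [Units.val_inv_eq_inv_val, Units.val_neg, inv_neg]
  obtain ⟨A, -, hA⟩ := block hg (by
    intro h
    rw [e1] at h
    have h3 := conj_eq hodd h (fun σ hσ => by rw [map_neg, map_inv₀, hσ, inv_neg, inv_inv, neg_neg])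
    exact hw (key _ h3.symm w.ne_zero)) (by
    intro h
    rw [Units.val_neg] at h
    have h3 := conj_eq hodd h (fun σ hσ => by
      rw [Units.val_inv_eq_inv_val, map_inv₀] at hσ
      rw [map_neg, Units.val_inv_eq_inv_val, ← inv_inv (σ (w : K)), hσ, inv_neg, neg_neg])
    apply hw
    apply hdeg
    refine key _ ?_ (w⁻¹).ne_zero
    rw [Units.val_inv_eq_inv_val, inv_inv, ← Units.val_inv_eq_inv_val]
    exact h3.symm)
  have h3 := lmul_inter (A := (A : K →ₗ[F] K)) hA (minpoly F (w : K)) 1
  rw [minpoly.aeval, zero_mul, map_zero] at h3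
  have h4 : (A : K →ₗ[F] K) 1 ≠ 0 := fun h => one_ne_zero (A.map_eq_zero_iff.1 h)
  have h5 := (mul_eq_zero.1 h3.symm).resolve_right h4
  rw [Units.val_neg] at h5
  have h6 := conj_eq hodd h5 (fun σ hσ => by rw [map_neg, hσ, neg_neg])
  apply w.ne_zero
  have h7 : (2 : K) * w = 0 := by linear_combination -h6
  exact (mul_eq_zero.1 h7).resolve_left h2K

theorem mem_iff_pow (L : IntermediateField F K) (x : K) : x ∈ L ↔ x ^ (Nat.card L) = x := by
  classical
  have : Finite K := Module.finite_of_finite F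
  have := Fintype.ofFinite K
  have := Fintype.ofFinite L
  have hL : 1 < Nat.card L := Finite.one_lt_card
  constructor
  · intro hx
    have h := FiniteField.pow_card (⟨x, hx⟩ : L)
    rw [← Nat.card_eq_fintype_card] at h
    exact congrArg Subtype.val h
  · intro hx
    have hne : (X ^ (Nat.card L) - X : K[X]) ≠ 0 := FiniteField.X_pow_card_sub_X_ne_zero K hL
    have h1 : (Finset.univ.filter fun y : K => y ∈ L) ⊆ (X ^ (Nat.card L) - X : K[X]).roots.toFinset := by
      intro y hy
      rw [Finset.mem_filter] at hy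
      rw [Multiset.mem_toFinset, mem_roots hne, IsRoot.def]
      have h := FiniteField.pow_card (⟨y, hy.2⟩ : L)
      rw [← Nat.card_eq_fintype_card] at h
      have h' : y ^ (Nat.card L) = y := congrArg Subtype.val h
      rw [eval_sub, eval_pow, eval_X, h', sub_self]
    have h2 : (Finset.univ.filter fun y : K => y ∈ L).card = Nat.card L := by
      rw [Nat.card_eq_fintype_card]
      exact (Fintype.card_subtype _).symm
    have h3 : (X ^ (Nat.card L) - X : K[X]).roots.toFinset.card ≤ Nat.card L := by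
      refine (Multiset.toFinset_card_le _).trans ((Polynomial.card_roots' _).trans ?_)
      rw [FiniteField.X_pow_card_sub_X_natDegree_eq K hL]
    have h4 := Finset.eq_of_subset_of_card_le h1 (by rw [h2]; exact h3)
    have h5 : x ∈ (X ^ (Nat.card L) - X : K[X]).roots.toFinset := by
      rw [Multiset.mem_toFinset, mem_roots hne, IsRoot.def]
      rw [eval_sub, eval_pow, eval_X, hx, sub_self]
    rw [← h4, Finset.mem_filter] at h5
    exact h5.2

theorem adjoin_eq_of_degree {w w' : K} (h : (minpoly F w).natDegree = (minpoly F w').natDegree) :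
    IntermediateField.adjoin F {w} = IntermediateField.adjoin F {w'} := by
  have : Finite K := Module.finite_of_finite F
  have hc : ∀ u : K, Nat.card (IntermediateField.adjoin F {u}) = Nat.card F ^ (minpoly F u).natDegree := by
    intro u
    rw [← IntermediateField.adjoin.finrank (Algebra.IsIntegral.isIntegral u)]
    exact Module.natCard_eq_pow_finrank
  ext x
  rw [mem_iff_pow, mem_iff_pow, hc, hc, h]

omit [Finite F] in
theorem comm_of_mem {w a : K} (ha : a ∈ IntermediateField.adjoin F {w}) {A : K →ₗ[F] K}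
    (hA : ∀ b, A (w * b) = w * A b) (b : K) : A (a * b) = a * A b := by
  have h2 : a ∈ Algebra.adjoin F {w} := by
    rw [← IntermediateField.adjoin_simple_toSubalgebra_of_isAlgebraic (Algebra.IsAlgebraic.isAlgebraic w)]
    exact ha
  rw [Algebra.adjoin_singleton_eq_range_aeval] at h2
  obtain ⟨μ, hμ⟩ := h2
  rw [← hμ]
  exact lmul_inter hA μ b

/-- the centralizer in `GL(K)` depends only on the degree -/
theorem comm_of_degree {w w' : K} (h : (minpoly F w).natDegree = (minpoly F w').natDegree) {A : K →ₗ[F] K}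
    (hA : ∀ a, A (w * a) = w * A a) (a : K) : A (w' * a) = w' * A a := by
  refine comm_of_mem ?_ hA a
  rw [adjoin_eq_of_degree h]
  exact IntermediateField.mem_adjoin_simple_self F w'

theorem card_comm_eq {w w' : K} (h : (minpoly F w).natDegree = (minpoly F w').natDegree) (A : K →ₗ[F] K) :
    (∀ a, A (w * a) = w * A a) ↔ ∀ a, A (w' * a) = w' * A a :=
  ⟨fun hA a => comm_of_degree h hA a, fun hA a => comm_of_degree h.symm hA a⟩

end count

/-- the order of the centralizer in `GL(K)` -/
theorem card_gl [Fintype F] [FiniteDimensional F K] (w : K) : ∃ m : ℕ, finrank F K = (minpoly F w).natDegree * m ∧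
    Nat.card {A : K ≃ₗ[F] K // ∀ a, A (w * a) = w * A a} =
      H326.CGU.glCard m (Fintype.card F ^ (minpoly F w).natDegree) := by
  obtain ⟨m, h1, h2⟩ := H326.CGU.card_cent_irr (F := F) (U := K) (W := Algebra.lmul F K w) (p := minpoly F w)
    (minpoly.irreducible (Algebra.IsIntegral.isIntegral w)) (by rw [aeval_lmul, minpoly.aeval, map_zero])
  exact ⟨m, h1, h2⟩

end Cfsg.Agent.H237.PL
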